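import Cfsg.Agent.Lib.TCK.Defs

/-! Basic consequences of the hypothesis (plan, section Basic). -/

set_option autoImplicit false

namespace Cfsg.Lib.TCK
open Subgroup Cfsg.Lib Cfsg.Lib.FT Cfsg.Lib.Bender Cfsg.Lib.TGC
open scoped commutatorElement

variable {G : Type*} [Group G] [Finite G]

theorem conj_into {T N : Subgroup G} (hT : IsSylowIn 2 T N) {x : G} (hx : IsInv x) (hN : x ∈ N) :
    ∃ k ∈ N, k * x * k⁻¹ ∈ T := by
  obtain ⟨k, hk, e⟩ := hT.exists_conj_le hx.isPGroup (zpowers_le.2 hN)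
  exact ⟨k, hk, e (conj_mem_conj (mem_zpowers x) k)⟩

theorem conj_into2 {T N : Subgroup G} (hT : IsSylowIn 2 T N) {x y : G} (ix : IsInv x) (iy : IsInv y) (c : Commute x y)
    (hx : x ∈ N) (hy : y ∈ N) : ∃ k ∈ N, k * x * k⁻¹ ∈ T ∧ k * y * k⁻¹ ∈ T := by
  obtain ⟨m, hm, e⟩ := hT.exists_conj_le (four_isPGroup ix iy c) (by
    rintro _ (rfl | rfl | rfl | rfl); exacts [one_mem _, hx, hy, mul_mem hx hy])
  exact ⟨m, hm, e (conj_mem_conj (mem_four.2 (by simp)) m), e (conj_mem_conj (mem_four.2 (by simp)) m)⟩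

namespace Hyp
variable {S W : Subgroup G} (h : Hyp S W)
include h

theorem fix' {a : G} (ha : a ∈ N[W]) (ia : IsInv a) : W ⊓ C1[a] = th a := by
  obtain ⟨k, hk, e⟩ := conj_into (h.syl.mono h.SW le_top) ia ha
  have := h.fix _ e (ia.conj k)
  rw [th_conj, GW.c1_conj, ← conj_eq_iff_mem_normalizer.2 hk, ← conj_inf] at this
  exact map_injective (MulAut.conj k).injective this

theorem th_le {a : G} (ha : a ∈ N[W]) (ia : IsInv a) : th a ≤ W := h.fix' ha ia ▸ inf_le_left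

theorem gen {a b : G} (ia : IsInv a) (ib : IsInv b) (ne : a ≠ b) (c : Commute a b) (ha : a ∈ N[W]) (hb : b ∈ N[W])
    {X : Subgroup G} (h1 : th a ≤ X) (h2 : th b ≤ X) (h3 : th (a * b) ≤ X) : W ≤ X :=
  le_of_four ia ib ne c h.odd ha hb (h.fix' ha ia ▸ h1) (h.fix' hb ib ▸ h2)
    (h.fix' (mul_mem ha hb) (ia.mul_of_comm ib ne c) ▸ h3)

/-- a four-group fixes a unique coset of `N(W)` -/
theorem four {a b g : G} (ia : IsInv a) (ib : IsInv b) (ne : a ≠ b) (c : Commute a b) (ha : a ∈ N[W]) (hb : b ∈ N[W])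
    (h1 : g * a * g⁻¹ ∈ N[W]) (h2 : g * b * g⁻¹ ∈ N[W]) : g ∈ N[W] := by
  have k : ∀ a ∈ N[W], IsInv a → th (g * a * g⁻¹) ≤ g •ᶜ W := fun a ha ia =>
    th_conj g a ▸ map_mono (h.th_le ha ia)
  exact conj_eq_iff_mem_normalizer.1 (eq_of_le_of_card_ge (h.gen (ia.conj g) (ib.conj g)
    (fun e => ne (conj_injective e)) (c.map (MulAut.conj g)) h1 h2 (k a ha ia) (k b hb ib)
    (conj_mul (a := a) ▸ k _ (mul_mem ha hb) (ia.mul_of_comm ib ne c))) (card_conj g W).le).symm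

/-- `N(W)` controls the fusion of a 2-central involution -/
theorem fus {z g : G} (zS : z ∈ S) (zi : IsInv z) (zc : S ≤ C1[z]) (hg : g * z * g⁻¹ ∈ N[W]) :
    ∃ m ∈ N[W], m * z * m⁻¹ = g * z * g⁻¹ := by
  obtain ⟨k, hk, e⟩ := conj_into (h.syl.mono h.SW le_top) (zi.conj g) hg
  replace e : k * g * z * (k * g)⁻¹ ∈ S := mem_of_mem_of_eq e (by group)
  suffices ∃ m ∈ N[W], m * z * m⁻¹ = k * g * z * (k * g)⁻¹ by
    obtain ⟨m, hm, e⟩ := this
    exact ⟨k⁻¹ * m, mul_mem (inv_mem hk) hm, by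
      rw [show k⁻¹ * m * z * (k⁻¹ * m)⁻¹ = k⁻¹ * (m * z * m⁻¹) * k by group, e]; group⟩
  generalize k * g = g at e
  by_cases hz : g * z * g⁻¹ = z
  · exact ⟨1, one_mem _, by simp [hz]⟩
  have c := mem_C1.1 (zc e)
  have c' : g⁻¹ * z * g ∈ C1[z] := mem_C1.2 (conj_injective (x := g) (by
    simpa only [mul_assoc, mul_inv_cancel_left, mul_inv_cancel, mul_one, inv_mul_cancel_left] using c.symm))
  obtain ⟨l, hl, e'⟩ := conj_into (h.syl.mono zc le_top) (zi.conj' g) c'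
  have l1 : l * z * l⁻¹ = z := by rw [mem_C1.1 hl, mul_inv_cancel_right]
  have := h.four (g := l * g⁻¹) (zi.conj g) zi hz c (h.SW e) (h.SW zS)
    (by rw [show l * g⁻¹ * (g * z * g⁻¹) * (l * g⁻¹)⁻¹ = l * z * l⁻¹ by group, l1]; exact h.SW zS)
    (h.SW (mem_of_mem_of_eq e' (by group)))
  exact ⟨_, inv_mem this, by
    rw [show (l * g⁻¹)⁻¹ * z * (l * g⁻¹)⁻¹⁻¹ = g * l⁻¹ * (z * l) * g⁻¹ by group, ← mem_C1.1 hl]; group⟩

end Hyp

/-- the Bender-Suzuki theorem -/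
theorem se_bot (hO : oddCore G = ⊥) {L : Subgroup G} (hL : L ≠ ⊤) {a b : G} (ia : IsInv a) (ib : IsInv b) (ne : a ≠ b)
    (c : Commute a b) (ha : a ∈ L) (hf : ∀ t ∈ L, IsInv t → ∀ g, g * t * g⁻¹ ∈ L → g ∈ L) {I : Subgroup G}
    (hI : Odd (Nat.card I)) (h1 : I ≤ L) (h2 : L ≤ N[I]) : I = ⊥ := by
  obtain ⟨-, -, -, h3⟩ := Big.bender_local hO (M := L) (fun hr => by
      obtain ⟨V, v1, v2, -⟩ := exists_four ia ib ne c
      have := hr V v1.1 v1.2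
      omega) ⟨hL, even_iff_two_dvd.2 (ia.orderOf_eq ▸ orderOf_dvd_natCard L ha), fun g hg =>
      GW.odd_of_forall fun t ht e => hg (by
        simpa using inv_mem (hf t ht.1 (isInv_iff_orderOf.2 e) g⁻¹ (by simpa using (h9_mem_conj_iff L g t).1 ht.2)))⟩
  have := le_pPrimeCoreOf (p := 2) h1 h2 (Nat.coprime_two_right.2 hI)
  rwa [show pPrimeCore 2 L = ⊥ from h3, Subgroup.map_bot, le_bot_iff] at this

/-- one class version -/
theorem se_bot1 (hO : oddCore G = ⊥) {L : Subgroup G} (hL : L ≠ ⊤) {a b : G} (ia : IsInv a) (ib : IsInv b) (ne : a ≠ b)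
    (c : Commute a b) (hc : C1[a] ≤ L) (hf : ∀ t ∈ L, IsInv t → ∃ l ∈ L, l * a * l⁻¹ = t) {I : Subgroup G}
    (hI : Odd (Nat.card I)) (h1 : I ≤ L) (h2 : L ≤ N[I]) : I = ⊥ :=
  se_bot hO hL ia ib ne c (hc (mem_C1.2 rfl)) (fun t ht it g hg => by
    obtain ⟨l, hl, rfl⟩ := hf t ht it
    obtain ⟨k, hk, e⟩ := hf _ hg (it.conj g)
    have : k⁻¹ * g * l ∈ L := hc (mem_C1.2 (by
      rw [show k⁻¹ * g * l * a = k⁻¹ * (g * (l * a * l⁻¹) * g⁻¹) * (g * l) by group, ← e]; group))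
    simpa [mul_assoc] using mul_mem (mul_mem hk this) (inv_mem hl)) hI h1 h2

end Cfsg.Lib.TCK
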