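import Cfsg.Agent.Lib.TCK.Gwb

/-! Groups with dihedral Sylow 2-subgroups and a class of involutions with a unique fixed point
(plan, section Dih). -/

set_option autoImplicit false

namespace Cfsg.Lib.TCK
open Subgroup Cfsg.Lib Cfsg.Lib.FT Cfsg.Lib.GW

universe v
variable {Y : Type v} [Group Y] [Finite Y]

theorem cover_of_card {E B : Subgroup Y} (h1 : Nat.card E * Nat.card B = Nat.card Y)
    (h2 : (Nat.card E).Coprime (Nat.card B)) (g : Y) : ∃ e ∈ E, e⁻¹ * g ∈ B := by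
  obtain ⟨s, hs, -⟩ := isComplement_iff_existsUnique_inv_mul_mem.1 (isComplement'_of_coprime h1 h2) g
  exact ⟨s, s.2, hs⟩

theorem dih (hd : Dih2 Y) (hO : pPrimeCore 2 Y = ⊥) {T B : Subgroup Y} (hT : IsSylowIn 2 T ⊤) (TB : T ≤ B)
    (hB : B ≠ ⊤) {D : Set Y} (Di : ∀ d ∈ D, orderOf d = 2) (Dc : ∀ d ∈ D, ∀ g, g * d * g⁻¹ ∈ D)
    (Df : ∀ d ∈ D, d ∈ B → ∀ g, g * d * g⁻¹ ∈ B → g ∈ B) {x u : Y} (hx : x ∈ D) (xT : x ∈ T)
    (hu : orderOf u = 2) (uT : u ∈ T) (uD : u ∉ D) :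
    (∀ d ∈ D, d ∈ T → ∃ b ∈ B, b * x * b⁻¹ = d) ∧
    (∃ d ∈ D, ∃ d' ∈ D, d ∈ T ∧ d' ∈ T ∧ d ≠ d' ∧ d * d' = d' * d) ∧
    (∀ E : Subgroup Y, Odd (Nat.card E) → T ≤ N[E] → E = ⊥) ∧
    ((B.index = 3 ∧ ∀ E : Subgroup Y, Odd (Nat.card E) → E = ⊥ ∨ ∀ g, ∃ e ∈ E, e⁻¹ * g ∈ B) ∨
      (B.index = 5 ∧ ¬ T ≤ C1[u] ∧ ∀ E : Subgroup Y, Odd (Nat.card E) → ∀ w ∈ N[E], w * w ∈ D →
        E = ⊥ ∨ ∀ g, ∃ e ∈ E, e⁻¹ * g ∈ B)) := by
  have sq2 : ∀ {y : Y}, orderOf y = 2 → y * y = 1 := fun h => by rw [← sq, ← h, pow_orderOf_eq_one]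
  have ne1 : ∀ {y : Y}, orderOf y = 2 → y ≠ 1 := fun h e => by simp [e] at h
  have i5 := B.index_mul_card
  by_cases hs : Group.IsSolvable Y
  · have hO' := oc_top.trans hO
    rcases hd.char_two hO' (fun e => ne1 hu (e.le (mem_top u))) (inf_centralizer_fit_le inferInstance) with
      ⟨z, hz, h⟩ | ⟨a, b, ha, n1, n2, n3⟩
    · have := (hd.isComplIn hz h hT).sup_eq
      rw [hO', bot_sup_eq] at this
      exact absurd (eq_top_iff.2 (this.ge.trans TB)) hB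
    rw [top_inf_eq] at n2
    rw [card_top] at n3
    have cF : ∀ g, ∀ f ∈ four a b, g * f * g⁻¹ ∈ four a b := fun g f hf =>
      (mem_normalizer_iff.1 (n1 (mem_top g)) _).1 hf
    have FT : four a b ≤ T := hT.le_of_normalizes ha.isPGroup le_top (le_top.trans n1)
    have DF : ∀ d ∈ D, d ∉ four a b := fun d hd dF =>
      hB (eq_top_iff.2 fun g _ => Df d hd (TB (FT dF)) g (TB (FT (cF g d dF))))
    have c1 := relIndex_mul_card FT
    have c2 : (four a b).relIndex T ≠ 1 := fun e => DF x hx (relIndex_eq_one.1 e xT)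
    have c3 : ¬ 3 ∣ Nat.card T := by
      obtain ⟨k, hk⟩ := IsPGroup.iff_card.1 hT.isPGroup
      rw [hk]; exact fun e => by simpa using Nat.prime_three.dvd_of_dvd_pow e
    have c4 := card_dvd_of_le TB
    have c5 : B.index ≠ 1 := fun e => hB (index_eq_one.1 e)
    have c6 := (card_subgroup_dvd_card B).trans n3
    have c7 := Nat.le_of_dvd (by norm_num) (c4.trans c6)
    rw [ha.card] at c1
    have c8 : Nat.card T = 8 := by
      have := c4.trans c6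
      generalize Nat.card T = c at *
      interval_cases c <;> omega
    have c9 : Nat.card B = 8 ∧ Nat.card Y = 24 := by
      have e1 := Nat.le_of_dvd (by norm_num) n3
      have e2 := Nat.le_of_dvd (by norm_num) c6
      have e3 : B.index ≠ 0 := index_ne_zero_of_finite
      rw [c8] at c4
      obtain ⟨k, hk⟩ := c4
      obtain rfl | rfl | rfl | rfl : k = 0 ∨ k = 1 ∨ k = 2 ∨ k = 3 := by omega
      all_goals
        rw [hk] at i5 c6 ⊢
        generalize Nat.card Y = c at *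
        interval_cases c <;> omega
    have i2 : ((four a b).subgroupOf T).index = 2 := by change (four a b).relIndex T = 2; omega
    have cm : ∀ d ∈ D, d ∈ T → ∀ d' ∈ D, d' ∈ T → d * d' ∈ four a b ∧ d * d' = d' * d := fun d h1 h2 d' h3 h4 => by
      have e : d * d' ∈ four a b :=
        (mul_mem_iff_of_index_two i2 (a := ⟨d, h2⟩) (b := ⟨d', h4⟩)).2 (iff_of_false (DF d h1) (DF d' h3))
      refine ⟨e, ?_⟩
      rw [eq_inv_of_mul_eq_one_left (ha.mul_self e), mul_inv_rev, inv_eq_of_mul_eq_one_left (sq2 (Di _ h1)),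
        inv_eq_of_mul_eq_one_left (sq2 (Di _ h3))]
    obtain ⟨f, hf, hfx⟩ : ∃ f ∈ four a b, f * x * f⁻¹ ≠ x := by
      by_contra hc
      push Not at hc
      exact DF x hx (n2.le fun f hf => mul_inv_eq_iff_eq_mul.1 (hc f hf))
    have x'T : f * x * f⁻¹ ∈ T := mul_mem (mul_mem (FT hf) xT) (inv_mem (FT hf))
    have x'D := Dc x hx f
    refine ⟨fun d h1 h2 => ?_, ⟨x, hx, _, x'D, xT, x'T, hfx.symm, (cm _ hx xT _ x'D x'T).2⟩, fun E hE hn => ?_,
      Or.inl ⟨by rw [c9.1, c9.2] at i5; omega, fun E hE => or_iff_not_imp_left.2 fun h0 => cover_of_card ?_ ?_⟩⟩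
    · have h4 : Four x (f * x * f⁻¹) := ⟨Di _ hx, Di _ x'D, hfx, (cm _ x'D x'T _ hx xT).2⟩
      rcases h4.mem_four.1 (hd.mem_four h4 (sq2 (Di _ h1)) (mem_c1.2 (cm _ h1 h2 _ hx xT).2)
        (mem_c1.2 (cm _ h1 h2 _ x'D x'T).2)) with e | e | e | e
      · exact absurd e (ne1 (Di _ h1))
      · exact ⟨1, one_mem _, by simp [e]⟩
      · exact ⟨f, TB (FT hf), e.symm⟩
      · exact absurd (e ▸ (cm _ hx xT _ x'D x'T).1) (DF d h1)
    · refine eq_bot_iff.2 fun e he => eq_one_of_odd_of_mul_self (odd_orderOf hE he) (ha.mul_self (n2.le fun f hf => ?_))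
      have h1 : e * (f * e⁻¹ * f⁻¹) ∈ E := mul_mem he ((mem_normalizer_iff.1 (hn (FT hf)) _).1 (inv_mem he))
      have h2 := eq_one_of_odd_of_mul_self (odd_orderOf hE h1) (ha.mul_self (by
        simpa only [mul_assoc] using mul_mem (cF e f hf) (inv_mem hf)))
      calc f * e = e * (f * e⁻¹ * f⁻¹) * (f * e) := by rw [h2, one_mul]
        _ = e * f := by group
    · have e1 : Nat.card E ∣ 3 := (hE.coprime_two_right.pow_right 3).dvd_of_dvd_mul_left
        (by have := card_subgroup_dvd_card E; rwa [c9.2] at this)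
      rw [((Nat.dvd_prime Nat.prime_three).1 e1).resolve_left fun e => h0 (card_eq_one.1 e), c9.1, c9.2]
    · rw [c9.1]; exact hE.coprime_two_right.pow_right 3
  obtain ⟨L, h, -, pf, kind⟩ := hd.exists_almS hO hs
  have LD : x ∈ L → ∀ i ∈ L, orderOf i = 2 → i ∈ D := fun xL i iL hi => by
    obtain ⟨g, -, e⟩ := hd.exists_conj_of_perfect pf xL iL (Di x hx) hi
    exact e ▸ Dc x hx g
  have nb : x ∈ L → u ∉ L := fun xL uL => uD (LD xL u uL hu)
  have hL : IsL2 L := kind.resolve_right fun e => nb (a7_top h e ▸ mem_top _) (a7_top h e ▸ mem_top _)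
  obtain ⟨s, hs2, sT, sL⟩ : ∃ s, orderOf s = 2 ∧ s ∈ T ∧ s ∉ L :=
    by_cases (fun xL => ⟨u, hu, uT, nb xL⟩) fun xL => ⟨x, Di x hx, xT, xL⟩
  have G := fun d (dD : d ∈ D) (dT : d ∈ T) => gwb h hL hT TB hB (Di d dD) dT (Df d dD (TB dT)) hs2 sT sL
  obtain ⟨xL, j5, c24, -⟩ := G x hx xT
  have bot : ∀ E : Subgroup Y, Odd (Nat.card E) → ∀ d ∈ D, E ⊓ C1[d] = ⊥ := fun E hE d dD => by
    obtain ⟨k, -, hk⟩ := hT.exists_conj_le (isPGroup_zpowers_two (sq2 (Di d dD))) le_top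
    have h1 := (G _ (Dc d dD k) (hk ⟨d, mem_zpowers d, rfl⟩)).2.2.2
    rw [c1_conj] at h1
    obtain ⟨n, hn⟩ := IsPGroup.iff_card.1 h1
    rw [card_map_conj] at hn
    exact (disjoint_of_coprime_natCard (hn ▸ hE.coprime_two_right.pow_right n)).eq_bot
  obtain ⟨j, jL, hj⟩ := l2_exists_four h hL (Di x hx)
  obtain ⟨k, -, hk⟩ := hT.exists_conj_le hj.isPGroup le_top
  obtain ⟨aT, bT⟩ := four_le_iff.1 (four_conj k x j ▸ hk)
  have hf := hj.conj k
  have aL := h.normal.conj_mem _ xL k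
  have bL := h.normal.conj_mem _ jL k
  refine ⟨fun d h1 h2 => ?_, ⟨_, LD xL _ aL hf.ht, _, LD xL _ bL hf.hv, aT, bT, hf.ne.symm, hf.comm.symm⟩,
    fun E hE hn => eq_bot_iff.2 (hf.le_of_odd hE (hn aT) (hn bT) (bot E hE _ (LD xL _ aL hf.ht)).le
      (bot E hE _ (LD xL _ bL hf.hv)).le (bot E hE _ (LD xL _ (mul_mem aL bL) hf.hw)).le),
    Or.inr ⟨j5, fun hc => nb xL (four_le_iff.2 ⟨aL, bL⟩
      (hd.mem_four hf (sq2 hu) (mem_c1_symm (hc aT)) (mem_c1_symm (hc bT)))), fun E hE w hw hw2 => ?_⟩⟩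
  · obtain ⟨g, -, e⟩ := l2_conj h hL (Di x hx) (Di d h1) xL (G d h1 h2).1
    exact ⟨g, Df x hx (TB xT) g (e ▸ TB h2), e⟩
  have w4 : w ^ 4 = 1 := by rw [← sq2 (Di _ hw2), ← sq, ← sq, ← pow_mul]
  have sr : Semiregular E (zpowers w) := fun y hy y1 => by
    refine eq_bot_iff.2 (le_trans (inf_le_inf_left _ fun e he => ?_) (bot E hE _ hw2).le)
    have m2 : w * w ∈ zpowers w := mul_mem (mem_zpowers w) (mem_zpowers w)
    by_cases y2 : y * y = 1
    · rwa [← eq_of_mem_zpowers_of_mul_self hy m2 y1 (ne1 (Di _ hw2)) y2 (sq2 (Di _ hw2))]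
    · rw [← eq_of_mem_zpowers_of_mul_self (mul_mem hy hy) m2 y2 (ne1 (Di _ hw2)) ?_ (sq2 (Di _ hw2))]
      · exact mem_c1_symm (mul_mem (mem_c1_symm he) (mem_c1_symm he))
      · obtain ⟨n, rfl⟩ := hy
        calc _ = (w ^ 4) ^ n := by rw [← zpow_natCast, ← zpow_mul]; group
          _ = 1 := by rw [w4, one_zpow]
  have e0 := sr.card_dvd_pred (zpowers_le.2 hw)
  rw [Nat.card_zpowers, orderOf_eq_prime_pow (p := 2) (n := 1) (by rw [pow_one, sq]; exact ne1 (Di _ hw2)) w4] at e0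
  rw [j5, c24] at i5
  have e1 : Nat.card E ∣ 15 := (hE.coprime_two_right.pow_right 3).dvd_of_dvd_mul_left
    (by have := card_subgroup_dvd_card E; rwa [← i5] at this)
  have e2 := Nat.le_of_dvd (by norm_num) e1
  refine or_iff_not_imp_left.2 fun h0 => ?_
  have e3 : Nat.card E ≠ 1 := fun e => h0 (card_eq_one.1 e)
  have e4 : Nat.card E = 5 := by
    generalize Nat.card E = c at *
    interval_cases c <;> omega
  exact cover_of_card (by rw [e4, c24, i5]) (by rw [e4, c24]; norm_num)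

end Cfsg.Lib.TCK
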