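import Cfsg.Agent.Lib.FT.GW.Cor

/-! Subgroups of odd index of `PΓL₂(q)` in which an involution has a unique fixed coset (plan, section Gwb). -/

set_option autoImplicit false

namespace Cfsg.Lib.TCK
open Subgroup Cfsg.Lib Cfsg.Lib.FT Cfsg.Lib.GW L2 Matrix
open scoped MatrixGroups commutatorElement

universe v
variable {Y : Type v} [Group Y] [Finite Y] {L : Subgroup Y}

theorem l2_num (h : AlmS L) (hL : IsL2 L) : ∃ q : ℕ, Odd q ∧ 3 < q ∧ 2 * Nat.card L = q * (q ^ 2 - 1) ∧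
    ∀ d : Y, orderOf d = 2 → Nat.card ↥(L ⊓ C1[d]) + 1 = q ∨ Nat.card ↥(L ⊓ C1[d]) = q + 1 := by
  obtain ⟨F, _, _, h3, ⟨m⟩⟩ := exists_mod h hL
  have := Fintype.ofFinite F
  have d1 := m.ker.card_map m.two (X := ⊤) (mem_top _)
  rw [← MonoidHom.range_eq_map, m.range, card_top, h9_card_sl2, ← Nat.card_eq_fintype_card] at d1
  refine ⟨Nat.card F, ?_, h3, d1, fun d hd => ?_⟩
  · rw [Nat.card_eq_fintype_card]; exact Nat.odd_iff.2 (odd_card_of_two_ne m.two)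
  obtain ⟨G, hG⟩ := m.exists_rep h.dih hd
  have ht := hG.trace_eq hd
  have c1 := card_tor_cases m.two ht hG.1
  have d2 := m.ker.card_map m.two (neg_one_mem_tor G)
  obtain ⟨s, hs⟩ := exists_anti_sl m.two ht hG.1
  have key : ((tor G).map m.π).relIndex (L ⊓ C1[d]) = 2 := by
    rw [relIndex_eq_two_iff_exists_notMem_and]
    refine ⟨m.π s, ⟨m.π_mem s, mem_c1.2 (((m.rep_π s).comm_iff hG).2 (Or.inr hs))⟩, ?_, ?_⟩
    · rintro ⟨A, hA, e⟩
      have h1 : (s : M₂(F)) * G = G * s := by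
        rcases m.ker.eq_iff.1 e with rfl | rfl
        · exact hA
        · simpa using mem_tor.1 hA
      have : G * (s : M₂(F)) = 0 := eq_zero_of_eq_neg m.two (by rw [← hs, h1])
      exact ne_zero_of_det (by rw [det_mul]; exact mul_ne_zero hG.1 (det_sl s)) this
    · rintro b ⟨hb, hc⟩
      obtain ⟨A, rfl⟩ := m.mem_L.1 hb
      rcases ((m.rep_π A).comm_iff hG).1 (mem_c1.1 hc) with e | e
      · exact Or.inr ⟨A, e, rfl⟩
      · refine Or.inl ⟨A * s, mem_tor.2 ?_, map_mul _ _ _⟩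
        rw [Matrix.SpecialLinearGroup.coe_mul, mul_assoc, hs, mul_neg, ← mul_assoc, e, neg_mul, neg_neg,
          mul_assoc]
  have := relIndex_mul_card hG.map_tor_le
  rw [key] at this
  rcases c1 with c | c <;> omega

/-- `C_L(d)` is generated by involutions -/
theorem l2_gen (h : AlmS L) (hL : IsL2 L) {d j e : Y} (hf : Four d j) (he : e ∈ L ⊓ C1[d]) :
    e * e = 1 ∨ e * j * (e * j) = 1 := by
  obtain ⟨F, _, _, -, ⟨m⟩⟩ := exists_mod h hL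
  obtain ⟨G, hG⟩ := m.exists_rep h.dih hf.ht
  obtain ⟨H, hH⟩ := m.exists_rep h.dih hf.hv
  by_cases ho : orderOf e = 2
  · exact Or.inl (by rw [← sq, ← ho, pow_orderOf_eq_one])
  · have := hG.inverts hH (hG.trace_eq hf.ht) (hH.trace_eq hf.hv) hf.ne hf.comm
      (hG.mem_map_tor he.1 (mem_c1.1 he.2) ho)
    rw [hf.v_inv] at this
    exact Or.inr (by rw [mul_assoc e, ← mul_assoc j, this, mul_inv_cancel])

/-- the subgroup `PGL₂(q) ∩ Y` -/
theorem l2_P (h : AlmS L) (hL : IsL2 L) : ∃ P : Subgroup Y, P.Normal ∧ L ≤ P ∧ (∀ i, i * i = 1 → i ∈ P) ∧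
    (∀ x ∈ P, Odd (orderOf x) → x ∈ L) ∧ ∀ x ∈ P, ∀ y ∈ P, x ∉ L → y ∉ L → x * y ∈ L := by
  obtain ⟨F, _, _, -, ⟨m⟩⟩ := exists_mod h hL
  refine ⟨m.σ.ker, inferInstance, fun y hy => m.σ_of_mem hy, fun i hi => ?_,
    fun x hx ho => m.mem_of_σ_odd hx ho, fun x hx y hy hx' hy' => ?_⟩
  · by_cases h1 : i = 1
    · exact h1 ▸ one_mem _
    · exact m.σ_of_inv h.dih (orderOf_eq_prime (by rwa [sq]) h1)
  · obtain ⟨G, hG⟩ := m.exists_rep_of_σ hx
    obtain ⟨H, hH⟩ := m.exists_rep_of_σ hy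
    rw [(hG.mul hH).mem_iff, det_mul]
    exact isSquare_mul_of_not' (fun e => hx' (hG.mem_iff.2 e)) fun e => hy' (hH.mem_iff.2 e)

theorem tor_bot (h : AlmS L) (hL : IsL2 L) {d f : Y} (hf : Four d f)
    (hA : ∀ τ ∈ O[L ⊓ C1[d]], τ * f * τ⁻¹ * f⁻¹ * (τ * f * τ⁻¹ * f⁻¹) = 1) : O[L ⊓ C1[d]] = ⊥ := by
  refine eq_bot_iff.2 fun τ hτ => ?_
  have e := l2_inverts h hL hf.ht hf.hv hf.ne hf.comm (inv_mem hτ)
  have := hA τ hτ
  rw [show τ * f * τ⁻¹ * f⁻¹ = τ * τ by rw [mul_assoc τ, mul_assoc τ, e, inv_inv]] at this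
  exact eq_one_of_odd_of_mul_self (odd_orderOf (odd_oc _) hτ)
    (eq_one_of_odd_of_mul_self (odd_orderOf (odd_oc _) (mul_mem hτ hτ)) this)

theorem gwb (h : AlmS L) (hL : IsL2 L) {T B : Subgroup Y} (hT : IsSylowIn 2 T ⊤) (TB : T ≤ B) (hB : B ≠ ⊤)
    {d u : Y} (hd : orderOf d = 2) (dT : d ∈ T) (hf : ∀ g, g * d * g⁻¹ ∈ B → g ∈ B) (hu : orderOf u = 2)
    (uT : u ∈ T) (uL : u ∉ L) : d ∈ L ∧ B.index = 5 ∧ Nat.card B = 24 ∧ IsPGroup 2 C1[d] := by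
  have := h.normal
  obtain ⟨P, hP, LP, Pi, Po, Pm⟩ := l2_P h hL
  have CB : C1[d] ≤ B := fun g hg => hf g (by rw [conj_eq_of_c1 hg]; exact TB dT)
  have LB : ¬ L ≤ B := fun hle => hB (eq_top_iff.2 fun g _ => hf g (by
    have : ⁅g, d⁆ ∈ L := l2_commutator h hL (commutator_mem_commutator (mem_top _) (mem_top _))
    simpa [commutatorElement_def] using mul_mem (hle this) (TB dT)))
  obtain ⟨j, jL, hj⟩ := l2_exists_four h hL hd
  have uu : u * u = 1 := by rw [← sq, ← hu, pow_orderOf_eq_one]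
  have hTL : IsSylowIn 2 (T ⊓ L) L := hT.inf_of_le_normalizer le_top (by rw [normalizer_eq_top])
  have fus : d ∈ L → ∀ z ∈ B, z ∈ L → orderOf z = 2 → ∃ g ∈ B ⊓ L, g * d * g⁻¹ = z := fun dL z zB zL hz => by
    obtain ⟨g, gL, e⟩ := l2_conj h hL hd hz dL zL
    exact ⟨g, ⟨hf g (e ▸ zB), gL⟩, e⟩
  obtain ⟨b, hb, hbd⟩ : ∃ b ∈ B ⊓ L, b ∉ C1[d] := by
    by_cases dL : d ∈ L
    · obtain ⟨g, hg, e⟩ := fus dL j (CB hj.v_mem) jL hj.hv
      exact ⟨g, hg, fun hc => hj.ne (by rw [← e, conj_eq_of_c1 hc])⟩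
    · by_contra hc
      push Not at hc
      obtain ⟨i, iL, hi⟩ := l2_exists_four h hL hj.hv
      obtain ⟨k, -, hk⟩ := hTL.exists_conj_le hi.isPGroup (four_le_iff.2 ⟨jL, iL⟩)
      have hk' := four_le_iff.1 (four_conj k j i ▸ hk)
      exact dL (four_le_iff.2 ⟨hk'.1.2, hk'.2.2⟩ (h.dih.mem_four (hi.conj k) hj.tt
        (mem_c1_symm (hc _ ⟨TB hk'.1.1, hk'.1.2⟩)) (mem_c1_symm (hc _ ⟨TB hk'.2.1, hk'.2.2⟩))))
  have hO : O[B ⊓ P] = ⊥ := by
    have h1 : B ≤ N[O[B ⊓ P]] := le_normalizer_piCoreOf_of_le _ fun g hg =>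
      inf_normalizer_le_normalizer_inf ⟨le_normalizer hg, by rw [normalizer_eq_top]; trivial⟩
    have h2 : ∀ g ∈ B, ∀ y ∈ O[B ⊓ P], y ∈ O[L ⊓ C1[g * d * g⁻¹]] := fun g hg y hy => by
      have ho := odd_orderOf (odd_oc _) hy
      have hi := (hj.conj g).ht
      refine h.dih.mem_oc hi inf_le_right ⟨Po y (oc_le _ hy).2 ho,
        l2_F1 h hL hi (odd_oc _) (le_trans (fun x hx => ?_) h1) hy⟩ ho
      refine (mul_mem_cancel_right hg).1 (hf _ ?_)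
      rw [show x * g * d * (x * g)⁻¹ = x * (g * d * g⁻¹) * x⁻¹ by group, conj_eq_of_c1 hx]
      exact mul_mem (mul_mem hg (TB dT)) (inv_mem hg)
    refine eq_bot_iff.2 fun y hy => by_contra fun hy1 => hbd (mem_c1_of_conj ?_)
    simpa using l2_eq_of_mem h hL (hj.conj 1).ht (hj.conj b).ht (h2 1 (one_mem _) y hy) (h2 b hb.1 y hy) hy1
  have AK : L ⊓ C1[d] ≤ B ⊓ P := fun x hx => ⟨CB hx.2, LP hx.1⟩
  have dK : d ∈ B ⊓ P := ⟨TB dT, Pi d hj.tt⟩
  obtain ⟨q, qo, q3, cL, cC⟩ := l2_num h hL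
  replace cC := cC d hd
  rw [Nat.odd_iff] at qo
  by_cases hs : Group.IsSolvable ↥(B ⊓ P)
  · have hK : B ⊓ P ≠ ⊥ := fun e => hj.t_ne (by rwa [e, mem_bot] at dK)
    have out : O[L ⊓ C1[d]] = ⊥ → d ∈ L := fun e => by_contra fun dL => (l2_outer h hL hd dL hj.hv jL).1 e
    rcases h.dih.char_two hO hK (inf_centralizer_fit_le hs) with ⟨z, hz, hzK⟩ | ⟨a, a', ha, n1, -, n3⟩
    · exfalso
      have zd : z ≠ d := by rintro rfl; exact hbd (hzK ⟨hb.1, LP hb.2⟩)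
      have hz' : Four d z := ⟨hd, hz, zd, (mem_c1.1 (hzK dK)).symm⟩
      have dL := out (tor_bot h hL hz' fun τ hτ => by rw [conj_eq_of_c1 (hzK (AK (oc_le _ hτ)))]; simp)
      have zL : z ∈ L := four_le_iff.2 ⟨dL, jL⟩
        (h.dih.mem_four hj hz'.vv hz'.v_mem (mem_c1_symm (hzK (AK ⟨jL, hj.v_mem⟩))))
      obtain ⟨g, hg, e⟩ := fus dL z (CB hz'.v_mem) zL hz
      exact zd (by rw [← conj_eq_of_c1 (inv_mem (hzK ⟨hg.1, LP hg.2⟩)), ← e]; group)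
    obtain ⟨f, hfF, hf4⟩ : ∃ f ∈ four a a', Four d f := by
      by_cases dF : d ∈ four a a'
      · by_cases e : a = d
        · exact ⟨a', right_mem_four _ _, e ▸ ha⟩
        · exact ⟨a, left_mem_four _ _, hd, ha.ht, e, (mem_c1.1 (ha.le_c dF).1).symm⟩
      · obtain ⟨f, h1, h2, h3⟩ := pg_exists_fixed_of_order_p ha.isPGroup (isPGroup_zpowers_two hj.tt)
          (zpowers_le.2 (n1 dK)) fun e => ha.t_ne (e.le (left_mem_four _ _))
        exact ⟨f, h1, hd, h2, fun e => dF (e ▸ h1), (h3 d (mem_zpowers d)).symm⟩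
    have A0 := tor_bot h hL hf4 fun τ hτ => ha.mul_self
      (mul_mem ((mem_normalizer_iff.1 (n1 (AK (oc_le _ hτ))) _).1 hfF) (inv_mem hfF))
    have dL := out A0
    have C2 : IsPGroup 2 C1[d] := by
      refine IsPGroup.of_card (Nat.eq_prime_pow_of_unique_prime_dvd Nat.card_pos.ne' fun {p} hp hpd => ?_)
      by_contra p2
      have := Fact.mk hp
      obtain ⟨x, hx, ho⟩ := exists_mem_orderOf_eq_of_dvd hpd
      have h0 := l2_field h hL hd dL p2 (GW.isPGroup_zpowers_of_pow (x := x) (n := 1)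
        (by rw [pow_one, ← ho, pow_orderOf_eq_one])) (zpowers_le.2 hx)
        (by rw [A0, commutator_bot_left]; exact IsPGroup.of_bot) (mem_zpowers x)
      have h1 := h.dih.mem_oc hd inf_le_right (X := L ⊓ C1[d]) ⟨h0, hx⟩ (ho ▸ hp.odd_of_ne_two p2)
      rw [A0, mem_bot] at h1
      rw [h1, orderOf_one] at ho
      exact hp.one_lt.ne ho
    have CP : C1[d] ≤ P := by
      obtain ⟨c, hc⟩ := h.dih.exists_gen C2
      obtain ⟨s, hs, hs'⟩ : ∃ s ∈ C1[d], s ∉ zpowers c :=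
        (DihGen.one_not_mem hj).elim (⟨d, self_mem_c1 d, ·⟩) (⟨j, hj.v_mem, ·⟩)
      intro x hx
      by_cases hx' : x ∈ zpowers c
      · exact (mul_mem_cancel_right (Pi _ (hc.sq _ hs hs'))).1
          (Pi _ (hc.sq _ (mul_mem hx hs) fun e => hs' ((mul_mem_cancel_left hx').1 e)))
      · exact Pi _ (hc.sq _ hx hx')
    have PT : ∀ g, g ∈ P := fun g => by
      obtain ⟨l, hl, e⟩ := l2_conj h hL hd (hj.conj g).ht dL (h.normal.conj_mem _ dL g)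
      refine (mul_mem_cancel_left (inv_mem (LP hl))).1 (CP (mem_c1_of_conj ?_))
      rw [show l⁻¹ * g * d * (l⁻¹ * g)⁻¹ = l⁻¹ * (g * d * g⁻¹) * l by group, ← e]; group
    rw [inf_eq_left.2 fun g _ => PT g] at n3
    have i0 : ∀ x, x * u ∈ L ∨ x ∈ L := fun x => by_cases Or.inr fun e => Or.inl (Pm x (PT x) u (PT u) e uL)
    have i4 := L.index_mul_card
    have i5 := B.index_mul_card
    have i6 := inf_comm L B ▸ relIndex_mul_card_inf L B
    rw [index_eq_two_iff_exists_notMem_and.2 ⟨u, uL, i0⟩] at i4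
    rw [relIndex_eq_two_iff_exists_notMem_and.2 ⟨u, TB uT, uL, fun x _ => i0 x⟩] at i6
    have i1 : L ⊓ C1[d] ≤ B ⊓ L := fun x hx => ⟨CB hx.2, hx.1⟩
    have i7 := card_dvd_of_le i1
    have i8 : Nat.card ↥(L ⊓ C1[d]) ≠ Nat.card ↥(B ⊓ L) := fun e => hbd ((eq_of_le_of_card_ge i1 e.ge).ge hb).2
    have i9 : ¬ 3 ∣ Nat.card ↥(L ⊓ C1[d]) := by
      obtain ⟨k, hk⟩ := IsPGroup.iff_card.1 (C2.to_inf_right (H := L))
      rw [hk]; exact fun e => by simpa using Nat.prime_three.dvd_of_dvd_pow e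
    have i2 : Nat.card ↥(B ⊓ L) ∣ 12 := Nat.dvd_of_mul_dvd_mul_left two_pos (i6 ▸ n3)
    have i3 := i7.trans i2
    have j1 := Nat.le_of_dvd (by norm_num) i2
    have j2 := Nat.le_of_dvd (by norm_num) i3
    have j3 : Nat.card ↥(L ⊓ C1[d]) = 4 := by
      generalize Nat.card ↥(L ⊓ C1[d]) = c at *
      interval_cases c <;> omega
    rw [j3] at i7 i8 cC
    obtain rfl : q = 5 := by omega
    have j4 : Nat.card B = 24 := by
      generalize Nat.card ↥(B ⊓ L) = c at *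
      interval_cases c <;> omega
    rw [j4] at i5
    exact ⟨dL, by omega, j4, C2⟩
  exfalso
  rw [piCoreOf_compl_singleton, map_eq_bot_iff_of_injective _ (subtype_injective _)] at hO
  obtain ⟨L1, h1, -, pf, kind⟩ := (h.dih.subgroup (B ⊓ P)).exists_almS hO hs
  have L1L : L1 ≤ L.subgroupOf _ := by
    rw [← pf, commutator_le]
    exact fun x _ y _ => l2_commutator h hL (commutator_mem_commutator (mem_top (x : Y)) (mem_top (y : Y)))
  have uL1 : (⟨u, TB uT, Pi u uu⟩ : ↥(B ⊓ P)) ∉ L1 := fun e => uL (L1L e)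
  have hL1 : IsL2 L1 := kind.resolve_right fun e => uL1 (a7_top h1 e ▸ mem_top _)
  obtain ⟨P1, -, -, Pi1, -, Pm1⟩ := l2_P h1 hL1
  have inv : ∀ x : ↥(B ⊓ P), (x : Y) ∈ L → (x : Y) * x = 1 → x ∈ L1 := fun x hx h2 => by_contra fun e =>
    uL ((mul_mem_cancel_left hx).1 (L1L (Pm1 x (Pi1 x (Subtype.ext h2)) _ (Pi1 _ (Subtype.ext uu)) e uL1)))
  obtain ⟨r, ro, r3, cL1, cC1⟩ := l2_num h1 hL1
  replace cC1 := cC1 ⟨d, dK⟩ (by rwa [orderOf_mk])
  rw [Nat.odd_iff] at ro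
  have c1 : Nat.card ↥(L ⊓ C1[d]) ≤ Nat.card ↥(L1 ⊓ C1[(⟨d, dK⟩ : ↥(B ⊓ P))]) := by
    rw [← card_map_of_injective (subtype_injective (B ⊓ P))]
    refine card_le_of_le fun e he => ⟨⟨e, AK he⟩, ⟨?_, mem_c1.2 (Subtype.ext (mem_c1.1 he.2))⟩, rfl⟩
    rcases l2_gen h hL hj he with e2 | e2
    · exact inv _ he.1 e2
    · exact (mul_mem_cancel_right (inv ⟨j, AK ⟨jL, hj.v_mem⟩⟩ jL hj.vv)).1 (inv _ (mul_mem he.1 jL) e2)
  have c2 : Nat.card L1 ≤ Nat.card ↥(L ⊓ B) := by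
    rw [← card_map_of_injective (subtype_injective (B ⊓ P))]
    refine card_le_of_le ?_
    rintro _ ⟨x, hx, rfl⟩
    exact ⟨L1L hx, x.2.1⟩
  have c3 := inf_comm B L ▸ relIndex_mul_card_inf B L
  have c4 : ¬ 2 ∣ B.relIndex L := fun e =>
    hTL.not_dvd_relIndex (e.trans (relIndex_dvd_of_le_left L (inf_le_left.trans TB)))
  have c5 : B.relIndex L ≠ 1 := fun e => LB (relIndex_eq_one.1 e)
  have c6 : 3 * Nat.card L1 ≤ Nat.card L := c3 ▸ Nat.mul_le_mul (by omega) c2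
  obtain ⟨r, rfl⟩ : ∃ s, r = s + 5 := ⟨r - 5, by omega⟩
  have c7 : q * (q ^ 2 - 1) ≤ (r + 7) * ((r + 7) ^ 2 - 1) := by gcongr <;> omega
  rw [show (r + 7) ^ 2 - 1 = r * r + 14 * r + 48 by apply Nat.sub_eq_of_eq_add; ring] at c7
  rw [show (r + 5) ^ 2 - 1 = r * r + 10 * r + 24 by apply Nat.sub_eq_of_eq_add; ring] at cL1
  nlinarith [Nat.zero_le (r * r * r), Nat.zero_le (r * r)]

end Cfsg.Lib.TCK
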