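import Cfsg.Agent.Lib.TCK.KillN
import Cfsg.Agent.Lib.TGC.OC

/-! The exceptional configurations do not occur (plan, section Kill). -/

set_option autoImplicit false

namespace Cfsg.Lib.TCK
open Subgroup Cfsg.Lib Cfsg.Lib.FT Cfsg.Lib.Bender Cfsg.Lib.TGC
open scoped commutatorElement Cfsg.Lib.GW

variable {G : Type*} [Group G] [Finite G]

/-- `z` is isolated in `L` -/
def Iso (L : Subgroup G) (z : G) : Prop := ∀ g ∈ L, z * (g * z * g⁻¹) = g * z * g⁻¹ * z → g * z * g⁻¹ = z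

theorem Iso.le {L Y T : Subgroup G} {z : G} (hi : Iso L z) (zi : IsInv z) (zL : z ∈ L) (hY : Odd (Nat.card Y))
    (YL : Y ≤ L) (zY : z ∈ N[Y]) (h : Y ⊓ C1[z] ≤ T) : Y ≤ O[L] ⊔ T := fun g hg => by
  obtain ⟨o, ho, c, hc, rfl⟩ := DD.exists_mul_c1 (O := O[L] ⊓ Y) (GW.odd_of_le hY inf_le_right) zi.2 (g := g)
    ⟨DD.zstar_in zL zi.2 hi (YL hg), by simpa [mul_assoc] using mul_mem hg (conj_mem zY (inv_mem hg))⟩
  exact mul_mem_sup ho.1 (h ⟨by simpa using Y.mul_mem (Y.inv_mem ho.2) hg, hc⟩)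

namespace Cfg
variable {S W : Subgroup G} {z x y : G} {r : ℕ} (h : Cfg S W z x y r)
include h

omit [Finite G] in
theorem SB : S ≤ N[W] ⊓ C1[z] := le_inf h.SW h.zc

theorem tB : th z ≤ N[W] ⊓ C1[z] := le_inf (h.thz.trans le_normalizer) (cpc_le z)

omit [Finite G] in
theorem maxB {L : Subgroup G} (hL : N[W] ⊓ C1[z] ≤ L) : C1[z] ≤ L ∨ L ⊓ C1[z] ≤ N[W] := by
  have e := relIndex_mul_relIndex (N[W] ⊓ C1[z]) (L ⊓ C1[z]) C1[z] (le_inf hL inf_le_right) inf_le_right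
  rw [inf_relIndex_right, inf_relIndex_right, h.idx] at e
  rcases (Nat.dvd_prime h.rp).1 (Dvd.intro _ e) with e1 | e1
  · exact Or.inr ((relIndex_eq_one.1 e1).trans inf_le_left)
  · rw [e1] at e
    exact Or.inl (relIndex_eq_one.1 (Nat.eq_of_mul_eq_mul_left h.rp.pos (e.trans (mul_one r).symm)))

theorem th_ne : th z ≠ ⊥ := fun e => by
  obtain ⟨m, -, hm⟩ := h.conj
  have e1 : th x = ⊥ := by rw [← hm, th_conj, e, Subgroup.map_bot]
  have := h.gen h.zi h.xi h.xz.symm h.cm (h.SW h.zS) (h.SW h.xS) e.le e1.le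
    (by rw [← h.zx, th_conj, e1, Subgroup.map_bot])
  exact h.nH (by rw [le_bot_iff.1 this]; exact le_normalizer_of_normal)

theorem hp {X : Subgroup G} (h1 : X ≤ W) (h2 : th z ≤ X) (p : ℕ) (e : piCoreOf {p} X = ⊥) : piCoreOf {p} W = ⊥ := by
  obtain ⟨m, hm, e1⟩ := h.conj
  have k : piCoreOf {p} W ⊓ C1[z] ≤ ⊥ := (le_inf inf_le_left ((inf_le_inf_right _ (piCoreOf_le _ W)).trans
    ((h.fix z h.zS h.zi).le.trans h2))).trans ((piCoreOf_inf_le _ h1).trans e.le)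
  exact le_bot_iff.1 (h.le_of (GW.odd_of_le h.odd (piCoreOf_le _ W)) (le_normalizer_piCoreOf_of_le _ h.SW)
    (le_normalizer_of_normal (mem_top y)) k
    (e1 ▸ inf_c1_le_conj k (normalizer_le_normalizer_piCoreOf _ W hm) (le_normalizer_of_normal (mem_top m))))

theorem iso_odd {L : Subgroup G} (hL : N[W] ⊓ C1[z] ≤ L) : Odd (Nat.card ↥(O[L] ⊔ th z)) := by
  rw [sup_comm]
  exact GW.odd_sup (odd_cpc z) (GW.odd_oc L) ((h.tB.trans hL).trans (le_normalizer_piCoreOf _ L))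

omit h in
theorem iso_norm {L X : Subgroup G} (h1 : X ≤ L) (h2 : X ≤ C1[z]) : X ≤ N[O[L] ⊔ th z] :=
  le_normalizer_sup (h1.trans (le_normalizer_piCoreOf _ L)) (h2.trans (cpc_norm z))

theorem iso_W {L : Subgroup G} (hL : N[W] ⊓ C1[z] ≤ L) (hi : Iso L z) : W ⊓ L ≤ O[L] ⊔ th z :=
  hi.le h.zi (hL (h.SB h.zS)) (GW.odd_of_le h.odd inf_le_left) inf_le_right
    (le_normalizer_inf h.SW ((h.SB.trans hL).trans le_normalizer) h.zS)
    ((inf_le_inf_right _ inf_le_left).trans (h.fix z h.zS h.zi).le)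

variable [IsSimpleGroup G]

theorem dich {I : Subgroup G} (hI : Odd (Nat.card I)) (h1 : I ≠ ⊥) (hB : N[W] ⊓ C1[z] ≤ N[I]) :
    Iso N[I] z ∨ (¬ C1[z] ≤ N[I] ∧ ∀ Y ≤ N[I], Odd (Nat.card Y) → S ≤ N[Y] → Y ≤ W) := by
  have hO : oddCore G = ⊥ := pg_pPrimeCore_eq_bot_of_simple (h.zi.orderOf_eq ▸ orderOf_dvd_natCard z)
  refine or_iff_not_imp_left.2 fun hi => ?_
  simp only [Iso, not_forall] at hi
  obtain ⟨g, hg, hc, hne⟩ := hi
  have SL := h.SB.trans hB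
  obtain ⟨k, hk, e⟩ := conj_into (h.syl.mono (le_inf SL h.zc) le_top) (h.zi.conj g)
    ⟨(N[I]).mul_mem (mul_mem hg (SL h.zS)) (inv_mem hg), mem_C1.2 hc.symm⟩
  obtain ⟨b, hb, e1⟩ := h.one _ e ((h.zi.conj g).conj k) fun e1 => hne (conj_injective (x := k) (by
    simpa only [mem_C1.1 hk.2, mul_inv_cancel_right] using e1))
  obtain ⟨l, hl, e2⟩ : ∃ l ∈ N[I], l * z * l⁻¹ = x := ⟨b⁻¹ * k * g, mul_mem (mul_mem (inv_mem (hB hb)) hk.1) hg, by
    rw [show b⁻¹ * k * g * z * (b⁻¹ * k * g)⁻¹ = b⁻¹ * (k * (g * z * g⁻¹) * k⁻¹) * b by group, ← e1]; group⟩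
  have nL : ¬ C1[z] ≤ N[I] := fun hH => h1 (se_bot1 hO (fun e => h1 (eq_bot_of_odd_normal hO hI e)) h.zi h.xi
    h.xz.symm h.cm hH (fun t ht it => by
      obtain ⟨n, hn, e3⟩ := conj_into (h.syl.mono SL le_top) it ht
      by_cases e4 : n * t * n⁻¹ = z
      · exact ⟨n⁻¹, inv_mem hn, by rw [← e4]; group⟩
      obtain ⟨c, hc, e5⟩ := h.one _ e3 (it.conj n) e4
      exact ⟨n⁻¹ * c * l, mul_mem (mul_mem (inv_mem hn) (hB hc)) hl, by
        rw [show n⁻¹ * c * l * z * (n⁻¹ * c * l)⁻¹ = n⁻¹ * (c * (l * z * l⁻¹) * c⁻¹) * n by group, e2, e5]; group⟩)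
    hI le_normalizer le_rfl)
  have k1 := (h.maxB hB).resolve_left nL
  have k2 : ∀ a ∈ N[I] ⊓ C1[x], l⁻¹ * a * l ∈ N[W] := fun a ha => k1 ⟨(N[I]).mul_mem (mul_mem (inv_mem hl) ha.1) hl, by
    simpa [← e2, mul_assoc] using ZD.C1_conj ha.2 l⁻¹⟩
  have lM : l⁻¹ ∈ N[W] := h.four h.zi h.xi h.xz.symm h.cm (h.SW h.zS) (h.SW h.xS)
    (by simpa using k2 z ⟨SL h.zS, mem_C1.2 h.cm.eq⟩) (by simpa using k2 x ⟨SL h.xS, mem_C1.2 rfl⟩)
  refine ⟨nL, fun Y hY oY sY => h.le_W oY sY (h.le_of oY sY (le_normalizer (h.SW h.yS))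
    ((inf_le_inf_right _ hY).trans k1) fun a ha => ?_)⟩
  simpa [mul_assoc] using mul_mem (mul_mem (inv_mem lM) (k2 a ⟨hY ha.1, ha.2⟩)) lM

theorem step1 {U : Subgroup G} (hU : Odd (Nat.card U)) (hB : N[W] ⊓ C1[z] ≤ N[U]) (ht : th z ≤ U) : U ≤ W := by
  obtain ⟨Y, hY, ⟨oY, bY, tY⟩, mx⟩ := Finite.exists_le_maximal
    (p := fun U : Subgroup G => Odd (Nat.card U) ∧ N[W] ⊓ C1[z] ≤ N[U] ∧ th z ≤ U) ⟨hU, hB, ht⟩
  have sY := h.SB.trans bY
  have n1 := h.norm oY sY tY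
  have t1 := le_inf tY h.thz
  have : W ≤ Y ⊓ W := le_of_char h.odd inf_le_right (fun e => h.th_ne (le_bot_iff.1 (e ▸ t1))) (fun I i1 i2 i3 => by
    have bI := (le_normalizer_inf bY inf_le_left).trans i3
    refine le_inf ?_ inf_le_left
    rcases h.dich (GW.odd_of_le h.odd (i1.trans inf_le_right)) i2 bI with hi | hi
    · exact (h.iso_W bI hi).trans (mx ⟨h.iso_odd bI, iso_norm bI inf_le_right, le_sup_right⟩
        (hi.le h.zi (bI (h.SB h.zS)) oY (n1.trans i3) (sY h.zS) (h.p1' oY sY)))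
    · exact inf_le_left.trans (mx ⟨h.odd, inf_le_left, h.thz⟩ (hi.2 Y (n1.trans i3) oY sY)))
    fun p _ => h.hp inf_le_right t1 p
  rw [inf_eq_right.2 (this.trans inf_le_left)] at n1
  exact hY.trans (h.le_W oY sY n1)

theorem false : False := by
  obtain ⟨X, -, ⟨x1, x2, x3⟩, mx⟩ := Finite.exists_le_maximal
    (p := fun X : Subgroup G => X ≤ W ∧ C1[z] ≤ N[X] ∧ th z ≤ X) ⟨h.thz, cpc_norm z, le_rfl⟩
  have : W ≤ X := le_of_char h.odd x1 (fun e => h.th_ne (le_bot_iff.1 (e ▸ x3))) (fun I i1 i2 i3 => by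
    have hI := x2.trans i3
    have bI := inf_le_right (a := N[W]).trans hI
    have hi := (h.dich (GW.odd_of_le h.odd (i1.trans x1)) i2 bI).resolve_right fun e => e.1 hI
    exact (h.iso_W bI hi).trans (mx ⟨h.step1 (h.iso_odd bI) (iso_norm bI inf_le_right) le_sup_right,
      iso_norm hI le_rfl, le_sup_right⟩ ((le_inf x1 (le_normalizer.trans i3)).trans (h.iso_W bI hi))))
    fun p _ => h.hp x1 x3 p
  exact h.nH (le_antisymm this x1 ▸ x2)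

end Cfg

end Cfsg.Lib.TCK
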