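import Cfsg.Agent.Lib.TCK.Basic

/-! A faithful action on a group of order 9 or 25 (plan, section KillN). -/

set_option autoImplicit false

namespace Cfsg.Lib.TCK
open Subgroup Cfsg.Lib Cfsg.Lib.FT Cfsg.Lib.Bender Cfsg.Lib.TGC
open scoped commutatorElement

variable {G : Type*} [Group G] [Finite G]

omit [Finite G] in
theorem inf_c1_le_conj {U X : Subgroup G} {a g : G} (h : U ⊓ C1[a] ≤ X) (hU : g ∈ N[U]) (hX : g ∈ N[X]) :
    U ⊓ C1[g * a * g⁻¹] ≤ X := by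
  rw [GW.c1_conj, ← conj_eq_iff_mem_normalizer.2 hU, ← conj_inf, ← conj_eq_iff_mem_normalizer.2 hX]
  exact map_mono h

theorem n_abs {A R T : Subgroup G} {z x y a b : G} {r : ℕ} (nA : A.Normal) (cA : IsMulCommutative A)
    (oA : Odd (Nat.card A)) (oR : Odd (Nat.card R)) (TR : T ≤ N[R]) (zT : z ∈ T) (zi : IsInv z) (Tz : T ≤ C1[z])
    (faith : R ⊓ C[A] = ⊥) (zA : A ⊓ C1[z] = ⊥)
    (good : ∀ t ∈ T, IsInv t → t ≠ z → R ⊓ C1[t] ≤ C[A ⊓ C1[t]]) (xT : x ∈ T) (xi : IsInv x) (xz : x ≠ z) (yT : y ∈ T)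
    (yx : y * x * y⁻¹ = z * x) (rp : r.Prime) (cx : Nat.card ↥(A ⊓ C1[x]) = r) (aT : a ∈ T) (bT : b ∈ T) (ai : IsInv a)
    (bi : IsInv b) (az : a ≠ z) (bz : b ≠ z) (ab : a * b * (a * b) = z) (cs : r = 3 ∨ ∃ w ∈ T ⊓ C[T], w * w = z) :
    R = ⊥ := by
  have := Fact.mk rp
  have NA : ∀ g : G, g ∈ N[A] := fun g => le_normalizer_of_normal (mem_top g)
  have cz : ∀ t ∈ T, Commute z t := fun t ht => (mem_C1.1 (Tz ht)).symm
  have f1 : ∀ ρ ∈ R, A ≤ C1[ρ] → ρ = 1 := fun ρ hρ e =>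
    mem_bot.1 (faith.le ⟨hρ, mem_C_iff.2 fun v hv => mem_C1.1 (e hv)⟩)
  have zinv : ∀ v ∈ A, z * v * z⁻¹ = v⁻¹ := fun v hv => inverts_of_inf_eq_bot zi.2 oA (NA z)
    (fun c hc e => mem_bot.1 (zA.le ⟨hc, mem_C1.2 e.symm⟩)) hv
  have pw : ∀ g ∈ T, ∀ k : ℤ, (∀ v ∈ A, g * v * g⁻¹ = v ^ k) → ∀ ρ ∈ R, Commute ρ g := fun g hg k e ρ hρ => by
    refine commutatorElement_eq_one_iff_commute.1 (f1 _ (by
      simpa only [commutatorElement_def, mul_assoc] using mul_mem hρ (conj_mem (TR hg) (inv_mem hρ))) fun v hv => ?_)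
    have e1 := e _ (conj_mem' (NA ρ) (conj_mem' (NA g) hv))
    have e2 := e _ (conj_mem' (NA g) hv)
    rw [show ρ⁻¹ * (g⁻¹ * v * g) * ρ = ρ⁻¹ * (g⁻¹ * v * g) * ρ⁻¹⁻¹ by rw [inv_inv], conj_zpow, ← e2] at e1
    refine mem_C1.2 ?_
    calc v * ⁅ρ, g⁆ = ρ * (ρ⁻¹ * (g * (g⁻¹ * v * g) * g⁻¹) * ρ⁻¹⁻¹) * g * ρ⁻¹ * g⁻¹ := by
          rw [commutatorElement_def]; group
      _ = ⁅ρ, g⁆ * v := by rw [← e1, commutatorElement_def]; group
  have zR := pw z zT (-1) (by simpa using zinv)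
  have inv : ∀ t ∈ T, IsInv t → t ≠ z → ∀ ρ ∈ R, t * ρ * t⁻¹ = ρ⁻¹ := fun t ht it tz ρ hρ =>
    inverts_of_inf_eq_bot it.2 oR (TR ht) (fun c hc e => f1 c hc (le_of_four zi it tz.symm (cz t ht) oA (NA z) (NA t)
      (zA.le.trans bot_le) (le_C1_iff.2 (good t ht it tz ⟨hc, mem_C1.2 e.symm⟩))
      (le_C1_iff.2 (good _ (mul_mem zT ht) (zi.mul_of_comm it tz.symm (cz t ht)) (by simpa using it.1)
        ⟨hc, mem_C1.2 ((zR c hc).mul_right e.symm)⟩)))) hρ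
  have eR : ∀ ρ ∈ R, Commute ρ (a * b) := fun ρ hρ => by
    have := inv a aT ai az _ (conj_mem (TR bT) hρ)
    rw [inv b bT bi bz ρ hρ, inv_inv, ← inv b bT bi bz ρ hρ] at this
    exact (mul_inv_eq_iff_eq_mul.1 ((by group : a * b * ρ * (a * b)⁻¹ = _).trans this)).symm
  have A2 : A ⊓ C1[z * x] = y •ᶜ (A ⊓ C1[x]) := by
    rw [← yx, GW.c1_conj, conj_inf, conj_eq_iff_mem_normalizer.2 (NA y)]
  have gen : ∀ X, y ∈ N[X] → A ⊓ C1[x] ≤ X → A ≤ X := fun X h1 h2 =>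
    le_of_four zi xi xz.symm (cz x xT) oA (NA z) (NA x) (zA.le.trans bot_le) h2 (yx ▸ inf_c1_le_conj h2 (NA y) h1)
  have cm : ∀ v ∈ A, ∀ v' ∈ A, Commute v v' := fun v hv v' hv' =>
    congrArg Subtype.val (cA.is_comm.comm (⟨v, hv⟩ : A) ⟨v', hv'⟩)
  have ne : ∀ {X : Subgroup G} {q : ℕ}, q.Prime → Nat.card X = q → ∃ v ∈ X, v ≠ 1 := fun {X q} hq e => by
    by_contra! hh
    rw [eq_bot_iff_forall X |>.2 hh, card_bot] at e
    exact hq.one_lt.ne e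
  rcases cs with rfl | ⟨w, hw, ww⟩
  · by_contra hR
    obtain ⟨p, pp, hp⟩ := Nat.exists_prime_and_dvd (mt card_eq_one.1 hR)
    have := Fact.mk pp
    obtain ⟨⟨ρ, hρ⟩, e⟩ := exists_prime_orderOf_dvd_card' p hp
    replace e : orderOf ρ = p := (orderOf_coe _).trans e
    have c9 : Nat.card A = 3 ^ 2 := by
      rw [← card_sup_eq_sq cx (Y := A ⊓ C1[z * x]) (by rw [A2, card_conj, cx]) (fun e => by
        obtain ⟨v, hv, v1⟩ := ne rp cx
        exact v1 (mem_bot.1 (zA.le ⟨hv.1, mem_C1.2 (by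
          have := Commute.mul_right (a := v) (b := z * x) (mem_C1.1 (e ▸ hv).2) (mem_C1.1 hv.2)
          rwa [mul_assoc, xi.2, mul_one] at this)⟩)))
        fun v hv => mem_N_of fun v' hv' => by rwa [(cm v hv.1 v' hv'.1).eq, mul_inv_cancel_right]]
      exact congrArg (fun X : Subgroup G => Nat.card X) (le_antisymm (le_of_four zi xi xz.symm (cz x xT) oA (NA z) (NA x)
        (zA.le.trans bot_le) le_sup_left le_sup_right) (sup_le inf_le_left inf_le_left))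
    have h1 := h9_card_modEq_inf_centralizer (p := p) (f := ρ) (e ▸ pow_orderOf_eq_one ρ) (NA ρ)
    obtain ⟨i, hi, h2⟩ := (Nat.dvd_prime_pow rp).1 (c9 ▸ card_dvd_of_le (inf_le_left : A ⊓ C1[ρ] ≤ A))
    rw [c9, h2] at h1
    interval_cases i
    · have h3 : p ∣ 2 ^ 3 := (Nat.modEq_iff_dvd' (by norm_num)).1 h1.symm
      have := (Nat.prime_dvd_prime_iff_eq pp Nat.prime_two).1 (pp.dvd_of_dvd_pow h3)
      exact (Nat.not_even_iff_odd.2 oR) (even_iff_two_dvd.2 (this ▸ hp))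
    · obtain ⟨v, hv, v1⟩ := ne rp h2
      have h3 := zpowers_eq_of_card_prime (h2 ▸ rp) hv v1
      obtain ⟨k, hk⟩ : a * b * v * (a * b)⁻¹ ∈ zpowers v := h3 ▸ ⟨conj_mem (NA _) hv.1, by
        have := ZD.C1_conj hv.2 (a * b)
        rwa [← (eR ρ hρ).eq, mul_inv_cancel_right] at this⟩
      have h4 : v ^ (k * k + 1) = 1 := by
        have hk : v ^ k = a * b * v * (a * b)⁻¹ := hk
        rw [zpow_add, zpow_mul, hk, conj_zpow, hk, zpow_one, mul_eq_one_iff_eq_inv, ← zinv v hv.1, ← ab]; group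
      rw [← orderOf_dvd_iff_zpow_eq_one, ← Nat.card_zpowers, h3, h2] at h4
      have : k % 3 = 0 ∨ k % 3 = 1 ∨ k % 3 = 2 := by omega
      have h5 := Int.emod_emod_of_dvd (k * k + 1) (dvd_refl 3)
      have h6 := Int.emod_eq_zero_of_dvd h4
      rcases this with h | h | h <;> simp [Int.add_emod, Int.mul_emod, h] at h6
    · have := f1 ρ hρ ((eq_of_le_of_card_ge inf_le_left (c9.trans h2.symm).le).ge.trans inf_le_right)
      rw [this, orderOf_one] at e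
      exact pp.one_lt.ne e
  · have wc : ∀ t ∈ T, Commute w t := fun t ht => (mem_C_iff.1 hw.2 t ht).symm
    obtain ⟨v, hv, v1⟩ := ne rp cx
    have h3 := zpowers_eq_of_card_prime (cx ▸ rp) hv v1
    obtain ⟨k, hk⟩ : w * v * w⁻¹ ∈ zpowers v := h3 ▸ ⟨conj_mem (NA _) hv.1, by
      have := ZD.C1_conj hv.2 w
      rwa [(wc x xT).eq, mul_inv_cancel_right] at this⟩
    let Q : Subgroup G :=
      { carrier := {v | v ∈ A ∧ w * v * w⁻¹ = v ^ k}
        one_mem' := ⟨one_mem _, by simp⟩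
        mul_mem' := fun {c d} hc hd => ⟨mul_mem hc.1 hd.1, by rw [(cm c hc.1 d hd.1).mul_zpow, ← hc.2, ← hd.2]; group⟩
        inv_mem' := fun {c} hc => ⟨inv_mem hc.1, by rw [inv_zpow, ← hc.2]; group⟩ }
    have wR := pw w hw.1 k fun u hu => (gen Q (mem_N_of fun c hc => ⟨conj_mem (NA y) hc.1, by
      rw [conj_zpow, ← hc.2, show w * (y * c * y⁻¹) * w⁻¹ = w * y * c * (w * y)⁻¹ by group, (wc y yT).eq]; group⟩)
      (h3 ▸ zpowers_le.2 ⟨hv.1, hk.symm⟩) hu).2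
    have nc : ∀ c, Commute c a → Commute c w → w * (a * b) ≠ c := fun c h1 h2 e => zi.1 (by
      have : Commute (a * b) a := by
        rw [show a * b = w⁻¹ * c by rw [← e]; group]; exact (wc a aT).inv_left.mul_left h1
      have h3 : b * a = a * b := mul_left_cancel (a := a) (by rw [← mul_assoc, this.eq])
      rw [← ab, mul_assoc, ← mul_assoc b, h3, mul_assoc, bi.2, mul_one, ai.2])
    refine eq_bot_iff.2 fun ρ hρ => eq_one_of_inverts_of_comm (t := w * (a * b)) (odd_orderOf_of_mem oR hρ)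
      (inv _ (mul_mem hw.1 (mul_mem aT bT)) ⟨nc 1 (.one_left _) (.one_left _), ?_⟩ (nc z (cz a aT) (cz w hw.1)) ρ hρ)
      ((wR ρ hρ).mul_right (eR ρ hρ)).symm
    rw [mul_assoc, ← mul_assoc (a * b), ← (wc _ (mul_mem aT bT)).eq, mul_assoc w, ab, ← mul_assoc, ww, zi.2]

end Cfsg.Lib.TCK
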