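import Cfsg.Agent.Lib.TCK.KillA

/-! Odd order subgroups normalized by `S` in the exceptional configurations (plan, section KillN). -/

set_option autoImplicit false

namespace Cfsg.Lib.TCK
open Subgroup Cfsg.Lib Cfsg.Lib.FT Cfsg.Lib.Bender Cfsg.Lib.TGC
open scoped commutatorElement

variable {G : Type*} [Group G] [Finite G]

omit [Finite G] in
theorem le_N_inf_c1 {S U : Subgroup G} (h : S ≤ N[U]) (a : G) : S ⊓ C1[a] ≤ N[U ⊓ C1[a]] :=
  le_normalizer_inf (inf_le_left.trans h) (inf_le_right.trans le_normalizer)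

omit [Finite G] in
theorem relIndex_eq_of_cover {D C M : Subgroup G} (hle : D ≤ C) (h : ∀ g ∈ C, ∃ d ∈ D, d⁻¹ * g ∈ M) :
    M.relIndex D = M.relIndex C := by
  rw [← ncard_image_eq_relIndex D M (fun g => (g : G ⧸ M)) fun _ _ _ _ => QuotientGroup.eq,
    ← ncard_image_eq_relIndex C M (fun g => (g : G ⧸ M)) fun _ _ _ _ => QuotientGroup.eq]
  refine congrArg _ (Set.Subset.antisymm (Set.image_mono hle) ?_)
  rintro _ ⟨g, hg, rfl⟩
  obtain ⟨d, hd, e⟩ := h g hg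
  exact ⟨d, hd, QuotientGroup.eq.2 e⟩

theorem le_N_pre {X : Subgroup G} {Y : Type*} [Group Y] {f : X →* Y} {Z : Subgroup Y} (h : Z.Normal) :
    X ≤ N[GW.pre f Z] := fun g hg => mem_N_of fun a ha => by
  obtain ⟨h1, h2⟩ := GW.mem_pre.1 ha
  exact GW.mem_pre.2 ⟨mul_mem (mul_mem hg h1) (inv_mem hg), GW.bar_conj (f := f) hg h1 ▸ h.conj_mem _ h2 _⟩

namespace Cfg
variable {S W : Subgroup G} {z x y : G} {r : ℕ} (h : Cfg S W z x y r)
include h

omit [Finite G] in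
theorem cm : Commute z x := (mem_C1.1 (h.zc h.xS)).symm

omit [Finite G] in
theorem zx : y * x * y⁻¹ = z * x := h.yx.trans h.cm.eq.symm

omit [Finite G] in
theorem nH : ¬ C1[z] ≤ N[W] := fun e => h.rp.one_lt.ne' (h.idx.symm.trans (relIndex_eq_one.2 e))

omit [Finite G] in
theorem nX : ¬ C1[x] ≤ N[W] := fun e => by
  obtain ⟨m, hm, rfl⟩ := h.conj
  exact h.nH fun g hg => by simpa [mul_assoc] using mul_mem (mul_mem (inv_mem hm) (e (ZD.C1_conj hg m))) hm

theorem le_of {U X : Subgroup G} (hU : Odd (Nat.card U)) (hS : S ≤ N[U]) (hX : y ∈ N[X]) (h1 : U ⊓ C1[z] ≤ X)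
    (h2 : U ⊓ C1[x] ≤ X) : U ≤ X :=
  le_of_four h.zi h.xi h.xz.symm h.cm hU (hS h.zS) (hS h.xS) h1 h2 (h.zx ▸ inf_c1_le_conj h2 (hS h.yS) hX)

theorem p1' {U : Subgroup G} (hU : Odd (Nat.card U)) (hS : S ≤ N[U]) : U ⊓ C1[z] ≤ th z :=
  h.p1 _ inf_le_right (GW.odd_of_le hU inf_le_left) (le_normalizer_inf hS (h.zc.trans le_normalizer))

theorem thz : th z ≤ W := h.th_le (h.SW h.zS) h.zi

theorem le_W {U : Subgroup G} (hU : Odd (Nat.card U)) (hS : S ≤ N[U]) (hM : U ≤ N[W]) : U ≤ W := by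
  refine h.le_of hU hS (h.SW h.yS) ((h.p1' hU hS).trans h.thz) ?_
  rcases h.px _ inf_le_right (GW.odd_of_le hU inf_le_left) (le_N_inf_c1 hS x) with e | e
  · exact e.trans (h.th_le (h.SW h.xS) h.xi)
  · exact absurd (fun g hg => by
      obtain ⟨d, hd, e⟩ := e g hg
      simpa using mul_mem (hM hd.1) e) h.nX

/-- (P2) -/
theorem inf_le {U : Subgroup G} (hU : Odd (Nat.card U)) (hS : S ≤ N[U]) : U ⊓ N[W] ≤ W :=
  h.le_W (GW.odd_of_le hU inf_le_left) (le_normalizer_inf hS (h.SW.trans le_normalizer)) inf_le_right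

open GW in
/-- (N) -/
theorem norm {U : Subgroup G} (hU : Odd (Nat.card U)) (hS : S ≤ N[U]) (ht : th z ≤ U) : U ≤ N[U ⊓ W] := by
  by_cases hM : U ≤ W
  · rw [inf_eq_left.2 hM]; exact le_normalizer
  obtain ⟨K, -, ⟨k1, k2⟩, mx⟩ := Finite.exists_le_maximal (p := fun K : Subgroup G => K ≤ U ⊓ W ∧ U ⊔ S ≤ N[K])
    ⟨bot_le, le_normalizer_of_normal⟩
  have UX : U ≤ U ⊔ S := le_sup_left
  have SX : S ≤ U ⊔ S := le_sup_right
  have RX : U ⊓ W ≤ U ⊔ S := inf_le_left.trans UX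
  obtain ⟨Y, _, _, f, fs, rfl⟩ := exists_quot (k1.trans RX) k2
  have ok : Odd (Nat.card (kr f)) := GW.odd_of_le hU (k1.trans inf_le_left)
  have top : im f U ⊔ im f S = ⊤ := by rw [← im_sup UX SX, im_self fs]
  have free : ∀ Z ≤ im f (U ⊓ W), im f U ≤ N[Z] → im f S ≤ N[Z] → Z = ⊥ := fun Z h1 h2 h3 => by
    rw [← im_pre fs Z, im_eq_bot_iff (pre_le Z)]
    exact mx ⟨fun a ha => sup_eq_left.2 k1 ▸ (bar_mem_im_iff (pre_le Z ha) RX).1 (h1 (mem_pre.1 ha).2),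
      le_N_pre (normalizer_eq_top_iff.1 (top_le_iff.1 (top ▸ sup_le h2 h3)))⟩
      ((le_pre_iff kr_le).2 (im_kr.le.trans bot_le))
  obtain ⟨A', a1, a2, a3, a4⟩ := exists_isMulCommutative_le_of_isSolvable (N := im f U)
    (fun e => hM (((im_eq_bot_iff UX).1 e).trans (k1.trans inf_le_right))) (odd_order_solvable (odd_im hU))
  have nA : A'.Normal := normalizer_eq_top_iff.1 (top_le_iff.1 (top ▸ sup_le (le_normalizer.trans a4)
    ((im_le_normalizer UX hS).trans a4)))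
  obtain ⟨A, AX, rfl, AU, XA⟩ : ∃ A ≤ U ⊔ S, im f A = A' ∧ A ≤ U ∧ U ⊔ S ≤ N[A] := ⟨_, pre_le A', im_pre fs A', fun a ha =>
    sup_eq_left.2 (k1.trans inf_le_left) ▸ (bar_mem_im_iff (pre_le A' ha) UX).1 (a1 (mem_pre.1 ha).2), le_N_pre nA⟩
  have oA := GW.odd_of_le hU AU
  have SA := SX.trans XA
  have SR : S ≤ N[U ⊓ W] := le_normalizer_inf hS h.SW
  have TR := im_le_normalizer (f := f) RX SR
  have NA : ∀ Z : Subgroup Y, Z ≤ N[im f A] := fun Z => le_normalizer_of_normal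
  have tr := (h.px _ inf_le_right (GW.odd_of_le oA inf_le_left) (le_N_inf_c1 SA x)).resolve_left fun e => a2
    (free _ (im_mono (le_inf AU (h.le_of oA SA (h.SW h.yS) ((h.p1' oA SA).trans h.thz)
      (e.trans (h.th_le (h.SW h.xS) h.xi))))) (NA _) (NA _))
  have cov : im f U ≤ im f A ⊔ im f (U ⊓ W) := by
    rw [← im_sup AX RX]
    refine im_mono (h.le_of hU hS (le_normalizer_sup SA SR h.yS) ((h.p1' hU hS).trans ((le_inf ht h.thz).trans
      le_sup_right)) fun g hg => ?_)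
    obtain ⟨d, hd, e⟩ := tr g hg.2
    have := U.mul_mem (inv_mem (AU hd.1)) hg.1
    simpa using mul_mem_sup hd.1 (show _ ∈ U ⊓ W from ⟨this, h.inf_le hU hS ⟨this, e⟩⟩)
  have cA : im f A ≤ C[im f A] := le_centralizer_iff_isMulCommutative.2 a3
  have i1 : im f A ⊓ im f (U ⊓ W) = ⊥ := free _ inf_le_right (cov.trans (sup_le
    (cA.trans ((centralizer_le inf_le_left).trans (centralizer_le_normalizer _)))
    (le_normalizer_inf (NA _) le_normalizer))) (le_normalizer_inf (NA _) TR)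
  have NC : ∀ Z : Subgroup Y, Z ≤ N[C[im f A]] := fun Z => (NA Z).trans (normalizer_le_normalizer_centralizer _)
  have i2 : im f (U ⊓ W) ⊓ C[im f A] = ⊥ := free _ inf_le_left (cov.trans (sup_le
    ((le_centralizer_iff.1 inf_le_right).trans (centralizer_le_normalizer _))
    (le_normalizer_inf le_normalizer (NC _)))) (le_normalizer_inf TR (NC _))
  have inj : ∀ s ∈ S, bar f s = 1 → s = 1 := fun s hs e => by
    obtain ⟨n, hn⟩ := pow_eq_one_of_mem h.syl.isPGroup hs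
    exact mem_bot.1 (mem_of_odd_of_pow_two_pow (odd_orderOf_of_mem ok ((bar_eq_one_iff (SX hs)).1 e)) (hn ▸ one_mem ⊥))
  have inj2 : ∀ s ∈ S, ∀ t ∈ S, bar f s = bar f t → s = t := fun s hs t ht e => mul_inv_eq_one.1 (inj _
    (mul_mem hs (inv_mem ht)) (by rw [bar_mul (SX hs) (inv_mem (SX ht)), bar_inv (SX ht), e, mul_inv_cancel]))
  have ii : ∀ s ∈ S, IsInv s → IsInv (bar f s) := fun s hs is =>
    ⟨fun e => is.1 (inj s hs e), by rw [← bar_mul (SX hs) (SX hs), is.2, bar_one]⟩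
  have cc : ∀ s ∈ S, s * s = 1 → im f A ⊓ C1[bar f s] = im f (A ⊓ C1[s]) := fun s hs e =>
    im_inf_c1 e (SX hs) AX (SA hs) ok
  obtain ⟨a, aS, b, bS, ai, bi, az, bz, ab⟩ := h.ee
  have := n_abs (T := im f S) (r := r) nA a3 (odd_im oA) (odd_im (GW.odd_of_le hU inf_le_left)) TR
    (bar_mem_im h.zS (SX h.zS)) (ii z h.zS h.zi) (im_le_c1 (SX h.zS) h.zc) i2
    (eq_bot_iff.2 (i1 ▸ le_inf inf_le_left (cc z h.zS h.zi.2 ▸ im_mono ((h.p1' oA SA).trans (le_inf ht h.thz)))))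
    (fun t ht it _ => by
      obtain ⟨s, hs, rfl⟩ := (mem_im_of_le SX).1 ht
      have is : IsInv s := ⟨fun e => it.1 (e ▸ bar_one), inj _ (mul_mem hs hs) (by rw [bar_mul (SX hs) (SX hs), it.2])⟩
      rw [cc s hs is.2, im_inf_c1 is.2 (SX hs) RX (SR hs) ok]
      refine commutator_eq_bot_iff_le_centralizer.1 ?_
      rw [← im_commutator (inf_le_left.trans RX) (inf_le_left.trans AX), eq_bot_iff, ← i1]
      have c1 : ⁅U ⊓ W ⊓ C1[s], A ⊓ C1[s]⁆ ≤ A := (commutator_mono (inf_le_left.trans (RX.trans XA)) inf_le_left).trans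
        (le_normalizer_iff_commutator_le_right.1 le_rfl)
      have c2 : ⁅U ⊓ W ⊓ C1[s], A ⊓ C1[s]⁆ ≤ th s := (commutator_mono ((inf_le_inf_right _ inf_le_right).trans
        (h.fix s hs is).le) (inf_le_right.trans (cpc_norm s))).trans (le_normalizer_iff_commutator_le_left.1 le_rfl)
      exact le_inf (im_mono c1) (im_mono (le_inf (c1.trans AU) (c2.trans (h.th_le (h.SW hs) is)))))
    (bar_mem_im h.xS (SX h.xS)) (ii x h.xS h.xi) (fun e => h.xz (inj2 x h.xS z h.zS e)) (bar_mem_im h.yS (SX h.yS))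
    (by rw [← bar_conj (SX h.yS) (SX h.xS), h.zx, bar_mul (SX h.zS) (SX h.xS)]) h.rp
    (by
      obtain ⟨m, hm, e⟩ := h.conj
      rw [cc x h.xS h.xi.2, ← h.idx, ← relIndex_conj m, conj_eq_iff_mem_normalizer.2 (le_normalizer hm), ← c1_conj, e,
        ← relIndex_eq_of_cover inf_le_right tr, ← ncard_image_eq_relIndex _ _ (bar f) fun c hc d hd => ?_]
      · refine congrArg Set.ncard (Set.ext fun v => mem_im_of_le (inf_le_left.trans AX))
      have cd := A.mul_mem (inv_mem hc.1) hd.1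
      rw [← inv_mul_eq_one, ← bar_inv (AX hc.1), ← bar_mul (inv_mem (AX hc.1)) (AX hd.1)]
      exact ⟨fun e => le_normalizer (k1 ((bar_eq_one_iff (AX cd)).1 e)).2, fun e => mem_bot.1 (i1.le
        ⟨bar_mem_im cd (AX cd), bar_mem_im ⟨AU cd, h.inf_le hU hS ⟨AU cd, e⟩⟩ (AX cd)⟩)⟩)
    (bar_mem_im aS (SX aS)) (bar_mem_im bS (SX bS)) (ii a aS ai) (ii b bS bi) (fun e => az (inj2 a aS z h.zS e))
    (fun e => bz (inj2 b bS z h.zS e))
    (by rw [← bar_mul (SX aS) (SX bS), ← bar_mul (SX (mul_mem aS bS)) (SX (mul_mem aS bS)), ab])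
    (h.cs.imp_right fun ⟨w, hw, e⟩ => ⟨bar f w, ⟨bar_mem_im hw.1 (SX hw.1), im_le_centralizer inf_le_right
      (bar_mem_im hw (SX hw.1))⟩, by rw [← bar_mul (SX hw.1) (SX hw.1), e]⟩)
  rw [le_antisymm ((im_eq_bot_iff RX).1 this) k1]
  exact UX.trans k2

end Cfg

end Cfsg.Lib.TCK
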