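import Cfsg.Agent.Lib.TCK.Defs
import Cfsg.Agent.Lib.Rank2.Local2
import Cfsg.Agent.Lib.FT.GW.Cover

/-! The quotient `C(z)/O(C(z))Z(S)` (plan, section Quot). -/

set_option autoImplicit false

namespace Cfsg.Lib.TCK
open Subgroup Cfsg.Lib Cfsg.Lib.FT Cfsg.Lib.Bender Cfsg.Lib.TGC
open scoped commutatorElement Cfsg.Lib.GW

universe v
variable {G : Type v} [Group G] [Finite G]

/-- odd order elements normalizing an abelian 2-subgroup centralize it -/
theorem odd_cent (h2 : PRankLE 2 2 G) {z : G} (zi : IsInv z) (zc : ∀ g : G, Commute g z) {Z : Subgroup G}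
    (hZ : IsPGroup 2 Z) (hc : Z ≤ C[Z]) {n : G} (hn : n ∈ N[Z]) (ho : Odd (orderOf n)) {v : G} (hv : v ∈ Z) :
    n * v * n⁻¹ = v := by
  have key : ∀ a ∈ Z, a * a = 1 → n * a * n⁻¹ = a := fun a ha a2 => by
    by_cases h1 : a = 1
    · rw [h1]; group
    by_cases h3 : a = z
    · rw [h3, (zc n).eq]; group
    have ia : IsInv a := ⟨h1, a2⟩
    have hb := conj_mem hn ha
    rcases mem_of_rank h2 zi ia (Ne.symm h3) (zc a).symm (ia.conj n).2 (zc _) (mem_C_iff.1 (hc ha) _ hb) with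
      e | e | e | e
    · exact absurd e (ia.conj n).1
    · refine absurd ?_ h3
      calc a = n⁻¹ * (n * a * n⁻¹) * n := by group
        _ = z := by rw [e, (zc n⁻¹).eq]; group
    · exact e
    · rw [mul_inv_eq_iff_eq_mul]
      refine comm_of_sq_comm ho ?_
      calc n * n * a = n * (n * a * n⁻¹) * n := by group
        _ = (n * z) * a * n := by rw [e]; group
        _ = z * (n * a * n⁻¹) * (n * n) := by rw [(zc n).eq]; group
        _ = (z * z) * a * (n * n) := by rw [e]; group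
        _ = a * (n * n) := by rw [zi.2, one_mul]
  exact congrArg Subtype.val (R2.aut_eq_of_comm hZ (fun a b => Subtype.ext (mem_C_iff.1 (hc b.2) a a.2))
    (φ := R2.nAut Z hn) ho (R2.nAut_pow_orderOf hn)
    (fun a ha => Subtype.ext (key a a.2 (congrArg Subtype.val ha))) ⟨v, hv⟩)

omit [Finite G] in
/-- two involutions with a product of 2-power order -/
theorem dih_fix {P : Type*} [Group P] {s t : MulAut P} (hs : s * s = 1) (ht : t * t = 1) {k : ℕ}
    (hk : (s * t) ^ 2 ^ k = 1) {v : P} (h1 : s v = v) (h2 : t v ≠ v) :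
    ∃ j : ℕ, ((s * t) ^ j) v ≠ v ∧ s (((s * t) ^ j) v) = ((s * t) ^ j) v := by
  obtain ⟨m, m1, m2⟩ := exists_last (g := s * t) (p := fun g => g v = v) (n := k)
    (fun e => h2 (s.injective (e.trans h1.symm))) (by rw [hk]; rfl)
  refine ⟨2 ^ m, m1, ?_⟩
  have e : s * (s * t) * s⁻¹ = (s * t)⁻¹ := by
    rw [← mul_assoc, hs, one_mul, mul_inv_rev, inv_eq_of_mul_eq_one_right ht]
  have e2 := inverts_pow e (2 ^ m)
  rw [mul_inv_eq_iff_eq_mul] at e2
  rw [← MulAut.mul_apply, e2, MulAut.mul_apply, h1]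
  apply ((s * t) ^ 2 ^ m).injective
  rw [← MulAut.mul_apply, mul_inv_cancel, ← MulAut.mul_apply, m2]; rfl

/-- the configurations in the proof of `weakly_closed` -/
structure Tri (w z w1 w2 : G) (A : Subgroup G) : Prop where
  c1 : ∃ g, g * w * g⁻¹ = w1
  c2 : ∃ g, g * w * g⁻¹ = w2
  ne : w1 ≠ w2
  pg : IsPGroup 2 A
  l1 : A ≤ C1[w1]
  l2 : A ≤ C1[w2]
  m1 : w1 ∈ A
  m2 : w2 ∈ A

/-- (WC) elements of the centre of a Sylow 2-subgroup are weakly closed -/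
theorem weakly_closed (h2 : PRankLE 2 2 G) {z : G} (zi : IsInv z) (zc : ∀ g : G, Commute g z) {S : Subgroup G}
    (hS : IsSylowIn 2 S ⊤) {w : G} (hw : w ∈ S ⊓ C[S]) {g : G} (hg : g * w * g⁻¹ ∈ S) : g * w * g⁻¹ = w := by
  by_contra hne
  have T0 : Tri w z w (g * w * g⁻¹) (S ⊓ C1[g * w * g⁻¹]) :=
    ⟨⟨1, by group⟩, ⟨g, rfl⟩, Ne.symm hne, hS.isPGroup.to_le inf_le_left,
      inf_le_left.trans (le_C1_iff.2 hw.2), inf_le_right,
      mem_inf.2 ⟨hw.1, mem_C1.2 (mem_C_iff.1 hw.2 _ hg).symm⟩, mem_inf.2 ⟨hg, mem_C1_self _⟩⟩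
  obtain ⟨A, ⟨w1, w2, T⟩, hmax⟩ := Set.Finite.exists_maximalFor (fun A : Subgroup G => Nat.card A)
    {A | ∃ w1 w2, Tri w z w1 w2 A} (Set.toFinite _) ⟨_, _, _, T0⟩
  let Z := A ⊓ C[A]
  have hZ : IsPGroup 2 Z := T.pg.to_le inf_le_left
  have hc : Z ≤ C[Z] := inf_le_right.trans (centralizer_le inf_le_left)
  have hN : N[A] ≤ N[Z] := le_normalizer_inf le_rfl (normalizer_le_normalizer_centralizer A)
  have z1 : w1 ∈ Z := mem_inf.2 ⟨T.m1, le_C1_iff.1 T.l1⟩
  have z2 : w2 ∈ Z := mem_inf.2 ⟨T.m2, le_C1_iff.1 T.l2⟩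
  -- maximality
  have mx : ∀ v1 v2 (B : Subgroup G), Tri w z v1 v2 B → A ≤ B → B ≤ A := fun v1 v2 B hB hle =>
    (eq_of_le_of_card_ge hle (hmax ⟨v1, v2, hB⟩ (card_le_of_le hle))).ge
  by_cases hA : IsSylowIn 2 A ⊤
  · obtain ⟨g1, e1⟩ := T.c1
    obtain ⟨g2, e2⟩ := T.c2
    have e3 : g2 * g1⁻¹ * w1 * (g2 * g1⁻¹)⁻¹ = w2 := by rw [← e1, ← e2]; group
    generalize g2 * g1⁻¹ = k at e3
    have s1 : IsSylowIn 2 ((k •ᶜ A)) C1[w2] := by
      refine (hA.conj_of_mem_normalizer (g := k) (by rw [normalizer_eq_top]; exact mem_top _)).mono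
        (fun x hx => mem_C1.2 ?_) le_top
      have := mem_C1.1 (T.l1 (mem_map_conj.1 hx))
      calc x * w2 = k * (k⁻¹ * x * k * w1) * k⁻¹ := by rw [← e3]; group
        _ = w2 * x := by rw [this, ← e3]; group
    obtain ⟨c, hc1, hc2⟩ := s1.exists_conj (hA.mono T.l2 le_top)
    have hn : c * k ∈ N[A] := mem_normalizer_of_map_conj_eq (by rw [map_conj_mul]; exact hc2)
    have e4 : c * k * w1 * (c * k)⁻¹ = w2 := by
      calc _ = c * (k * w1 * k⁻¹) * c⁻¹ := by group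
        _ = w2 := by rw [e3, mem_C1.1 hc1]; group
    generalize c * k = n at hn e4
    obtain ⟨u, b, e, -, ⟨j, hj⟩, hb, hu, hb'⟩ := exists_pPart (p := 2) n
    have hu' : u ∈ A := hA.le_of_le_normalizer (isPGroup_zpowers_of hj) le_top
      (zpowers_le.2 (zpowers_le.2 hn hu)) (mem_zpowers u)
    have e5 := odd_cent h2 zi zc hZ hc (hN (zpowers_le.2 hn hb'))
      (Nat.not_even_iff_odd.1 fun h => hb (even_iff_two_dvd.1 h)) z1
    refine T.ne ?_
    calc w1 = u * (b * w1 * b⁻¹) * u⁻¹ := by rw [e5, mem_C1.1 (T.l1 hu')]; group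
      _ = w2 := by rw [← e4, e]; group
  · have up : ∀ v, (∃ g, g * w * g⁻¹ = v) → v ∈ Z → ∃ t ∈ N[A], t * t ∈ A ∧ t * v * t⁻¹ = v ∧
        ∀ v', (∃ g, g * w * g⁻¹ = v') → v' ∈ Z → t * v' * t⁻¹ = v' → v' = v := by
      rintro v ⟨g1, e1⟩ hv
      have l1 : A ≤ C1[v] := le_C1_iff.2 hv.2
      have s1 : IsSylowIn 2 (g1 •ᶜ S) ⊤ := hS.conj_of_mem_normalizer (by rw [normalizer_eq_top]; exact mem_top _)
      have l2 : g1 •ᶜ S ≤ C1[v] := fun x hx => mem_C1.2 (by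
        have := mem_C_iff.1 hw.2 _ (mem_map_conj.1 hx)
        calc x * v = g1 * (g1⁻¹ * x * g1 * w) * g1⁻¹ := by rw [← e1]; group
          _ = v * x := by rw [this, ← e1]; group)
      obtain ⟨t, t1, t2, t3, t4⟩ := exists_up T.pg l1 fun h =>
        hA (s1.of_card_ge T.pg le_top ((s1.mono l2 le_top).card_eq_card h).le)
      refine ⟨t, t3, t4, by rw [mem_C1.1 t1]; group, fun v' c' hv' e => ?_⟩
      by_contra hne'
      obtain ⟨P, p1, p2, p3, p4⟩ := ext2 T.pg t3 t4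
      have l3 : ∀ v0, A ≤ C1[v0] → t ∈ C1[v0] → P ≤ C1[v0] := fun v0 a1 a2 x hx => by
        rcases (p4 x).1 hx with h | h
        · exact a1 h
        · exact (mul_mem_cancel_right a2).1 (a1 h)
      exact t2 (mx v' v P ⟨c', ⟨g1, e1⟩, hne', p1, l3 _ (le_C1_iff.2 hv'.2) (mem_C1.2 (mul_inv_eq_iff_eq_mul.1 e)),
        l3 _ l1 t1, p2 hv'.1, p2 hv.1⟩ p2 p3)
    obtain ⟨t1, n1, q1, f1, u1⟩ := up w1 T.c1 z1
    obtain ⟨t2, n2, q2, f2, u2⟩ := up w2 T.c2 z2
    let φ := Z.normalizerMonoidHom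
    have triv : ∀ n : N[Z], (∀ v ∈ Z, (n : G) * v * (n : G)⁻¹ = v) → φ n = 1 := fun n h =>
      MulEquiv.ext fun v => Subtype.ext (h v v.2)
    have trA : ∀ n : N[Z], (n : G) ∈ A → φ n = 1 := fun n h => triv n fun v hv => by
      rw [mem_C_iff.1 hv.2 _ h]; group
    let s1 : N[Z] := ⟨t1, hN n1⟩
    let s2 : N[Z] := ⟨t2, hN n2⟩
    obtain ⟨u, b, e, cm, ⟨j, hj⟩, hb, -, -⟩ := exists_pPart (p := 2) (s1 * s2)
    have hb1 : φ b = 1 := triv b fun v hv => odd_cent h2 zi zc hZ hc b.2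
      (by rw [orderOf_coe]; exact Nat.not_even_iff_odd.1 fun h => hb (even_iff_two_dvd.1 h)) hv
    obtain ⟨i, i1, i2⟩ := dih_fix (s := φ s1) (t := φ s2) (by rw [← map_mul]; exact trA _ q1)
      (by rw [← map_mul]; exact trA _ q2) (k := j) (by rw [← map_mul, e, map_mul, hb1, mul_one, ← map_pow, hj, map_one])
      (v := ⟨w1, z1⟩) (Subtype.ext f1) fun h => T.ne (u2 w1 T.c1 z1 (congrArg Subtype.val h))
    rw [← map_mul, ← map_pow] at i1 i2
    generalize (s1 * s2) ^ i = r at i1 i2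
    obtain ⟨g1, e1⟩ := T.c1
    exact i1 (Subtype.ext (u1 (φ r ⟨w1, z1⟩) ⟨r * g1, by
      change _ = (r : G) * w1 * (r : G)⁻¹
      rw [← e1]; group⟩ (φ r ⟨w1, z1⟩).2 (congrArg Subtype.val i2)))

theorem center_two (hO : pPrimeCore 2 G = ⊥) : IsPGroup 2 (center G) := by
  have := (fit_eq_piCoreOf_of_compl_eq_bot (GW.oc_top.trans hO)).le
  rw [fit_top, piCoreOf_top, piCore_singleton] at this
  exact isPGroup_pCore.to_le ((le_fitting_of_isMulCommutative inferInstance inferInstance).trans this)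

/-- (ZS) -/
theorem center_sylow_le (hO : pPrimeCore 2 G = ⊥) (h2 : PRankLE 2 2 G) {z : G} (zi : IsInv z)
    (zc : ∀ g : G, Commute g z) {S : Subgroup G} (hS : IsSylowIn 2 S ⊤) : S ⊓ C[S] ≤ center G := by
  have key : ∀ w ∈ S ⊓ C[S], w * w ∈ center G → w ∈ center G := fun w hw h => by
    let π := QuotientGroup.mk' (center G)
    have cS : center G ≤ S := hS.le_of_normalizes (center_two hO) le_top (by rw [normalizer_eq_top]; exact le_top)
    have s1 : IsSylowIn 2 (S.map π) ⊤ := by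
      have := hS.map π
      rwa [← MonoidHom.range_eq_map, MonoidHom.range_eq_top_of_surjective _ (QuotientGroup.mk'_surjective _)] at this
    obtain ⟨T, hT⟩ := s1.exists_sylow_top
    have mem : ∀ x : G, π x ∈ S.map π → x ∈ S := fun x ⟨y, hy, e⟩ => by
      have := cS (QuotientGroup.eq.1 e)
      exact (mul_mem_cancel_left (S.inv_mem hy)).1 this
    have hz : π w ∈ center _ := zstar_center (GW.pPrimeCore_quotient_center hO (center_two hO))
      (by rw [sq, ← map_mul]; exact (QuotientGroup.eq_one_iff _).2 h)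
      (isIsolated_of_sylow T (hT ▸ mem_map_of_mem π hw.1) fun g hg => by
        obtain ⟨g, rfl⟩ := QuotientGroup.mk'_surjective _ g
        rw [← map_inv, ← map_mul, ← map_mul] at hg ⊢
        rw [weakly_closed h2 zi zc hS hw (mem _ (hT ▸ hg))])
    refine mem_center_iff.2 fun g => mul_inv_eq_iff_eq_mul.1 (weakly_closed h2 zi zc hS hw (mem _ ?_))
    rw [map_mul, map_mul, mem_center_iff.1 hz, map_inv, mul_inv_cancel_right]
    exact mem_map_of_mem π hw.1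
  intro w hw
  by_contra hn
  obtain ⟨n, hn'⟩ := pow_eq_one_of_mem hS.isPGroup hw.1
  obtain ⟨m, m1, m2⟩ := exists_last (p := fun g => g ∈ center G) hn (n := n) (by rw [hn']; exact one_mem _)
  exact m1 (key _ (pow_mem hw _) m2)

namespace Sy
variable {S : Subgroup G} {z x y a u : G} (h : Sy S z x y a u)
include h

theorem quot : ∃ (Y : Type v) (_ : Group Y) (_ : Finite Y) (f : C1[z] →* Y), Function.Surjective f ∧
    GW.kr f = th z ⊔ S ⊓ C[S] ∧ GW.Dih2 Y ∧ pPrimeCore 2 Y = ⊥ ∧ IsSylowIn 2 (GW.im f S) ⊤ := by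
  have eth : th z = O[C1[z]] := centralizerPPrimeCore_eq z
  obtain ⟨Y, _, _, f, hf, hk⟩ := GW.exists_quot (GW.oc_le C1[z]) (le_normalizer_piCoreOf _ _)
  have ko : Odd (Nat.card (GW.kr f)) := hk ▸ GW.odd_oc _
  have hO : pPrimeCore 2 Y = ⊥ := by
    rw [← GW.oc_top, ← GW.im_self hf, ← GW.im_oc le_rfl ko, ← hk, GW.im_kr]
  have syl : ∀ {Y : Type v} [Group Y] [Finite Y] {f : C1[z] →* Y}, Function.Surjective f →
      IsSylowIn 2 (GW.im f S) ⊤ := fun {Y} _ _ {f} hf => by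
    rw [← GW.im_self hf]
    exact isPiHallOf_singleton_iff.1 (((isPiHallOf_singleton_iff.2 (h.syl.mono h.zc le_top)).subgroupOf le_rfl).map f)
  have inj : ∀ s ∈ S, s ∈ GW.kr f → s = 1 := fun s hs h1 => by
    obtain ⟨n, hn⟩ := pow_eq_one_of_mem h.syl.isPGroup hs
    exact mem_bot.1 (mem_of_odd_of_pow_two_pow (odd_orderOf_of_mem ko h1) (O := ⊥) (i := n) (hn ▸ one_mem _))
  have rk : PRankLE 2 2 Y := by
    rw [← pRankLE_top_iff, ← MonoidHom.range_eq_top_of_surjective f hf, MonoidHom.range_eq_map,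
      pRankLE_map_iff_of_ker f, pRankLE_top_iff]
    · exact pRankLE_subgroup h.rk _
    · rw [top_inf_eq, ← card_map_of_injective (C1[z]).subtype_injective]
      exact fun e => Nat.not_even_iff_odd.2 ko (even_iff_two_dvd.2 e)
  have zz : z ∈ C1[z] := mem_C1_self z
  have zi : IsInv (GW.bar f z) := isInv_iff_orderOf.2 (GW.orderOf_bar_two zz h.zi.orderOf_eq ko)
  have zc : ∀ g : Y, Commute g (GW.bar f z) := fun g => by
    obtain ⟨g, rfl⟩ := hf g
    rw [← GW.bar_coe]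
    exact GW.bar_comm g.2 zz (mem_C1.1 g.2)
  have ZH : S ⊓ C[S] ≤ C1[z] := inf_le_left.trans h.zc
  have eZ : center Y = GW.im f (S ⊓ C[S]) := by
    refine le_antisymm (fun y hy => ?_) ((le_inf (GW.im_mono inf_le_left)
      (GW.im_le_centralizer inf_le_right)).trans (center_sylow_le hO rk zi zc (syl hf)))
    obtain ⟨s, hs, rfl⟩ := (GW.mem_im_of_le h.zc).1 ((syl hf).le_of_normalizes (center_two hO) le_top
      (by rw [normalizer_eq_top]; exact le_top) hy)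
    refine GW.bar_mem_im (mem_inf.2 ⟨hs, mem_C_iff.2 fun x hx => ?_⟩) (h.zc hs)
    refine mul_inv_eq_one.1 (inj _ (mul_mem (mul_mem hx hs) (inv_mem (mul_mem hs hx))) ?_)
    rw [← GW.bar_eq_iff (h.zc (mul_mem hx hs)) (h.zc (mul_mem hs hx)), GW.bar_mul (h.zc hx) (h.zc hs),
      GW.bar_mul (h.zc hs) (h.zc hx)]
    exact mem_center_iff.1 hy _
  let π := QuotientGroup.mk' (center Y)
  have hs : Function.Surjective (π.comp f) := (QuotientGroup.mk'_surjective _).comp hf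
  have ek : GW.kr (π.comp f) = th z ⊔ S ⊓ C[S] := by
    rw [eth, ← hk, sup_comm, ← GW.pre_im ZH, ← eZ, GW.kr, GW.pre, ← MonoidHom.comap_ker, QuotientGroup.ker_mk']
  refine ⟨Y ⧸ center Y, inferInstance, inferInstance, π.comp f, hs, ek, ?_,
    GW.pPrimeCore_quotient_center hO (center_two hO), syl hs⟩
  have aH := h.zc h.aS
  have e1 : zpowers (GW.bar (π.comp f) a) = GW.im (π.comp f) (zpowers a ⊔ S ⊓ C[S]) := by
    rw [GW.im_sup (zpowers_le.2 aH) ZH, (GW.im_eq_bot_iff ZH).2 (ek ▸ le_sup_right), sup_bot_eq, GW.im_zpowers aH]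
  refine GW.dih2_of_gen (syl hs) (c := GW.bar (π.comp f) a) ⟨GW.bar_mem_im h.aS aH, ?_, ?_⟩
  · intro y' hy hn
    obtain ⟨s, hs', rfl⟩ := (GW.mem_im_of_le h.zc).1 hy
    rw [← GW.bar_mul (h.zc hs') (h.zc hs'), GW.bar_eq_one_iff (h.zc (mul_mem hs' hs')), ek]
    exact mem_sup_right (mem_inf.2 ⟨mul_mem hs' hs', h.dih1 s hs' fun e => hn (e1 ▸ GW.bar_mem_im e (h.zc hs'))⟩)
  · intro y1 hy1 y2 hy2 n1 n2
    obtain ⟨s, hs', rfl⟩ := (GW.mem_im_of_le h.zc).1 hy1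
    obtain ⟨s', hs'', rfl⟩ := (GW.mem_im_of_le h.zc).1 hy2
    rw [← GW.bar_mul (h.zc hs') (h.zc hs''), e1]
    exact GW.bar_mem_im (h.dih2 s hs' s' hs'' (fun e => n1 (e1 ▸ GW.bar_mem_im e (h.zc hs')))
      fun e => n2 (e1 ▸ GW.bar_mem_im e (h.zc hs''))) (h.zc (mul_mem hs' hs''))

end Sy

end Cfsg.Lib.TCK
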