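import Cfsg.Agent.Lib.TCK.Basic
import Cfsg.Agent.Lib.TCK.Quot
import Cfsg.Agent.Lib.TCK.Dih

/-! The structure of `C(z)` if it does not normalize `W` (plan, section Struct). -/

set_option autoImplicit false
set_option linter.unusedSectionVars false

namespace Cfsg.Lib.TCK
open Subgroup Cfsg.Lib Cfsg.Lib.FT Cfsg.Lib.Bender Cfsg.Lib.TGC
open scoped commutatorElement

variable {G : Type*} [Group G] [Finite G]

theorem th_le_C1 (z : G) : th z ≤ C1[z] := map_subtype_le _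

theorem C1_le_N_th (z : G) : C1[z] ≤ N[th z] := by
  rw [th, centralizerPPrimeCore_eq]; exact le_normalizer_piCoreOf _ _

theorem odd_th (z : G) : Odd (Nat.card (th z)) := by
  rw [th, centralizerPPrimeCore_eq]; exact GW.odd_oc _

namespace Sy
variable {S : Subgroup G} {z x y a u : G} (h : Sy S z x y a u)
include h

theorem dec_K {d : G} (hk : d ∈ th z ⊔ S ⊓ C[S]) : ∃ o ∈ th z, ∃ c ∈ S ⊓ C[S], o * c = d :=
  (mem_sup_of_le_normalizer ((inf_le_left.trans h.zc).trans (C1_le_N_th z))).1 hk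

theorem mem_Z {s : G} (hs : s ∈ S) (hk : s ∈ th z ⊔ S ⊓ C[S]) : s ∈ C[S] := by
  obtain ⟨o, ho, c, hc, rfl⟩ := h.dec_K hk
  obtain ⟨n, hn⟩ := pow_eq_one_of_mem h.syl.isPGroup ((S.mul_mem_cancel_right hc.1).1 hs)
  have : o = 1 := mem_bot.1 (mem_of_odd_of_pow_two_pow (odd_orderOf_of_mem (odd_th z) ho) (O := ⊥) (i := n)
    (hn ▸ one_mem _))
  rw [this, one_mul]; exact hc.2

theorem mem_th {d : G} (hd : Odd (orderOf d)) (hk : d ∈ th z ⊔ S ⊓ C[S]) : d ∈ th z := by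
  obtain ⟨o, ho, c, hc, e⟩ := h.dec_K hk
  obtain ⟨n, hn⟩ := pow_eq_one_of_mem h.syl.isPGroup hc.1
  have key : ∀ m : ℕ, d ^ m * (c ^ m)⁻¹ ∈ th z := fun m => by
    induction m with
    | zero => simp
    | succ m ih =>
      have := mul_mem ih (conj_mem (C1_le_N_th z (h.zc (S.pow_mem hc.1 m))) ho)
      have e2 : d ^ (m + 1) * (c ^ (m + 1))⁻¹ = d ^ m * (c ^ m)⁻¹ * (c ^ m * o * (c ^ m)⁻¹) := by
        rw [pow_succ d, pow_succ' c, ← e]; group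
      rwa [e2]
  have := key (2 ^ n)
  rw [hn, inv_one, mul_one] at this
  exact mem_of_odd_of_pow_two_pow hd this

theorem lift {d s : G} (hd : d ∈ C1[z]) (d2 : d * d = 1) (hs : s ∈ S) (e : d * s⁻¹ ∈ th z ⊔ S ⊓ C[S]) :
    ∃ o ∈ th z, ∃ c ∈ S ⊓ C[S], o * d * o⁻¹ = s * c := by
  have h1 : d ∈ S ⊔ th z := by
    have : th z ⊔ S ⊓ C[S] ≤ S ⊔ th z := sup_le le_sup_right (inf_le_left.trans le_sup_left)
    simpa using mul_mem (this e) (mem_sup_left hs)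
  obtain ⟨k, hk, e1⟩ := (h.syl.mono (le_sup_left : S ≤ S ⊔ th z) le_top).exists_conj_le
    (isPGroup_zpowers_of (n := 1) (by rw [pow_one, sq, d2])) (zpowers_le.2 h1)
  obtain ⟨s', hs', o, ho, rfl⟩ := (mem_sup_of_le_normalizer' (h.zc.trans (C1_le_N_th z))).1 hk
  have e2 : o * d * o⁻¹ ∈ S := by
    have := conj_mem' (le_normalizer hs') (e1 (conj_mem_conj (mem_zpowers d) _))
    rwa [show s'⁻¹ * (s' * o * d * (s' * o)⁻¹) * s' = o * d * o⁻¹ by group] at this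
  have e3 : o * d * o⁻¹ * s⁻¹ ∈ S := mul_mem e2 (inv_mem hs)
  have e4 : o * d * o⁻¹ * s⁻¹ ∈ C[S] := h.mem_Z e3 (by
    rw [show o * d * o⁻¹ * s⁻¹ = o * (d * o⁻¹ * d⁻¹) * (d * s⁻¹) by group]
    exact mul_mem (mem_sup_left (mul_mem ho (conj_mem (C1_le_N_th z hd) (inv_mem ho)))) e)
  exact ⟨o, ho, _, mem_inf.2 ⟨e3, e4⟩, by rw [mem_C_iff.1 e4 s hs]; group⟩

theorem cfg {W : Subgroup G} (hW : Hyp S W) (hn : ¬ C1[z] ≤ N[W]) : ∃ r, Cfg S W z x y r := by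
  obtain ⟨Y, _, _, f, hf, hk, hd, hO, hT⟩ := h.quot
  have zH : z ∈ C1[z] := mem_C1_self z
  have zZ : z ∈ S ⊓ C[S] := mem_inf.2 ⟨h.zS, le_C1_iff.1 h.zc⟩
  have thB : th z ≤ N[W] ⊓ C1[z] := le_inf ((hW.th_le (hW.SW h.zS) h.zi).trans le_normalizer) (th_le_C1 z)
  have SB : S ≤ N[W] ⊓ C1[z] := le_inf hW.SW h.zc
  have KB : GW.kr f ≤ N[W] ⊓ C1[z] := hk ▸ sup_le thB (inf_le_left.trans SB)
  have memB : ∀ g ∈ C1[z], GW.bar f g ∈ GW.im f (N[W] ⊓ C1[z]) → g ∈ N[W] := fun g hg e => by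
    rw [GW.bar_mem_im_iff hg inf_le_right, sup_eq_left.2 KB] at e
    exact e.1
  have surj : ∀ v : Y, ∃ g ∈ C1[z], GW.bar f g = v := fun v => by
    obtain ⟨g, rfl⟩ := hf v
    exact ⟨g, g.2, GW.bar_coe g⟩
  have cj : ∀ {g d : G}, g ∈ C1[z] → d ≠ z → g * d * g⁻¹ ≠ z := fun {g d} hg h1 e => h1 (by
    calc d = g⁻¹ * (g * d * g⁻¹) * g := by group
      _ = z := by rw [e, mul_assoc, ← mem_C1.1 hg]; group)
  have barZ : ∀ c ∈ S ⊓ C[S], GW.bar f c = 1 := fun c hc =>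
    (GW.bar_eq_one_iff (h.zc hc.1)).2 (hk ▸ mem_sup_right hc)
  have barO : ∀ o ∈ th z, GW.bar f o = 1 := fun o ho =>
    (GW.bar_eq_one_iff (th_le_C1 z ho)).2 (hk ▸ mem_sup_left ho)
  let D : Set Y := {v | ∃ d ∈ C1[z], IsInv d ∧ d ≠ z ∧ GW.bar f d = v}
  have Di : ∀ d ∈ D, orderOf d = 2 := by
    rintro _ ⟨d, hd, id, dz, rfl⟩
    refine isInv_iff_orderOf.1 ⟨fun e => ?_, by rw [← GW.bar_mul hd hd, id.2, GW.bar_one]⟩
    rw [GW.bar_eq_one_iff hd, hk] at e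
    obtain ⟨o, ho, c, hc, e1⟩ := h.lift hd id.2 (one_mem S) (by simpa using e)
    rw [one_mul] at e1
    rcases h.zu c hc (e1 ▸ (id.conj o).2) with e2 | e2
    · exact (id.conj o).1 (e1.trans e2)
    · exact cj (th_le_C1 z ho) dz (e1.trans e2)
  obtain ⟨R1, R2, R3, R4⟩ := dih hd hO hT (GW.im_mono SB) (fun e => hn fun g hg => memB g hg (e ▸ mem_top _))
    (D := D) Di
    (by
      rintro _ ⟨d, hd, id, dz, rfl⟩ g
      obtain ⟨g, hg, rfl⟩ := surj g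
      exact ⟨_, mul_mem (mul_mem hg hd) (inv_mem hg), id.conj g, cj hg dz, GW.bar_conj hg hd⟩)
    (by
      rintro _ ⟨d, hd, id, dz, rfl⟩ h1 g h2
      obtain ⟨g, hg, rfl⟩ := surj g
      rw [← GW.bar_conj hg hd] at h2
      refine GW.bar_mem_im (mem_inf.2 ⟨hW.four h.zi id dz.symm (mem_C1.1 hd).symm (hW.SW h.zS) (memB d hd h1) ?_
        (memB _ (mul_mem (mul_mem hg hd) (inv_mem hg)) h2), hg⟩) hg
      rw [mem_C1.1 hg, mul_inv_cancel_right]; exact hW.SW h.zS)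
    (x := GW.bar f x) (u := GW.bar f u) ⟨x, h.zc h.xS, h.xi, h.xz, rfl⟩ (GW.bar_mem_im h.xS (h.zc h.xS))
    (isInv_iff_orderOf.1 ⟨fun e => h.uZ (h.mem_Z h.uS (hk ▸ (GW.bar_eq_one_iff (h.zc h.uS)).1 e)), by
      rw [← GW.bar_mul (h.zc h.uS) (h.zc h.uS)]; exact barZ _ (mem_inf.2 ⟨mul_mem h.uS h.uS, h.u2⟩)⟩)
    (GW.bar_mem_im h.uS (h.zc h.uS))
    (by
      rintro ⟨d, hd, id, dz, e⟩
      rw [GW.bar_eq_iff hd (h.zc h.uS), hk] at e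
      obtain ⟨o, ho, c, hc, e1⟩ := h.lift hd id.2 h.uS e
      exact h.uni c hc (e1 ▸ (id.conj o).2))
  have bot : ∀ E ≤ C1[z], Odd (Nat.card E) → GW.im f E = ⊥ → E ≤ th z := fun E hE ho e d hd =>
    h.mem_th (odd_orderOf_of_mem ho hd) (hk ▸ (GW.im_eq_bot_iff hE).1 e hd)
  obtain ⟨m, hm, em⟩ : ∃ m ∈ N[W], m * z * m⁻¹ = x := by
    obtain ⟨g, hg⟩ := h.one x h.xi
    exact hg ▸ hW.fus h.zS h.zi h.zc (hg ▸ hW.SW h.xS)
  have tr : ∀ g ∈ C1[x], m⁻¹ * g * m ∈ C1[z] := fun g hg => mem_C1.2 (by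
    calc m⁻¹ * g * m * z = m⁻¹ * (g * x) * m := by rw [← em]; group
      _ = z * (m⁻¹ * g * m) := by rw [mem_C1.1 hg, ← em]; group)
  have trE : ∀ E ≤ C1[x], m⁻¹ •ᶜ E ≤ C1[z] := fun E hE g hg => by
    have := tr _ (hE (mem_map_conj.1 hg))
    rwa [show m⁻¹ * (m⁻¹⁻¹ * g * m⁻¹) * m = g by group] at this
  have px : ∀ E ≤ C1[x], Odd (Nat.card E) → (GW.im f (m⁻¹ •ᶜ E) = ⊥ ∨
      ∀ g, ∃ e ∈ GW.im f (m⁻¹ •ᶜ E), e⁻¹ * g ∈ GW.im f (N[W] ⊓ C1[z])) →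
      E ≤ th x ∨ ∀ g ∈ C1[x], ∃ d ∈ E, d⁻¹ * g ∈ N[W] := by
    rintro E hE ho (e | e)
    · left
      rw [← em, th_conj]
      exact map_conj_le_iff.1 (bot _ (trE E hE) (by rwa [card_conj]) e) |>.trans (by rw [inv_inv])
    · refine .inr fun g hg => ?_
      obtain ⟨e1, he, e2⟩ := e (GW.bar f (m⁻¹ * g * m))
      obtain ⟨d, hd, rfl⟩ := (GW.mem_im_of_le (trE E hE)).1 he
      have dH := trE E hE hd
      rw [← GW.bar_inv dH, ← GW.bar_mul (inv_mem dH) (tr g hg)] at e2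
      refine ⟨_, mem_map_conj.1 hd, ?_⟩
      have := conj_mem (le_normalizer hm) (memB _ (mul_mem (inv_mem dH) (tr g hg)) e2)
      rwa [show m * (d⁻¹ * (m⁻¹ * g * m)) * m⁻¹ = (m⁻¹⁻¹ * d * m⁻¹)⁻¹ * g by group] at this
  have idx : (N[W]).relIndex C1[z] = (GW.im f (N[W] ⊓ C1[z])).index := by
    rw [GW.im, index_map_eq _ hf, inf_subgroupOf_right, relIndex]
    rw [← GW.kr_subgroupOf]
    exact fun g hg => KB hg
  have lf : ∀ d ∈ D, d ∈ GW.im f S → ∃ a ∈ S, IsInv a ∧ a ≠ z ∧ GW.bar f a = d := by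
    rintro _ ⟨d, hd, id, dz, rfl⟩ h1
    obtain ⟨s, hs, e⟩ := (GW.mem_im_of_le h.zc).1 h1
    obtain ⟨o, ho, c, hc, e1⟩ := h.lift hd id.2 hs (hk ▸ (GW.bar_eq_iff hd (h.zc hs)).1 e.symm)
    refine ⟨s * c, S.mul_mem hs hc.1, e1 ▸ id.conj o, e1 ▸ cj (th_le_C1 z ho) dz, ?_⟩
    rw [GW.bar_mul (h.zc hs) (h.zc hc.1), barZ c hc, mul_one, e]
  have one : ∀ t ∈ S, IsInv t → t ≠ z → ∃ b ∈ N[W] ⊓ C1[z], b * x * b⁻¹ = t := fun t ht it tz => by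
    obtain ⟨b0, hb0, e⟩ := R1 _ ⟨t, h.zc ht, it, tz, rfl⟩ (GW.bar_mem_im ht (h.zc ht))
    obtain ⟨b, hb, rfl⟩ := (GW.mem_im_of_le inf_le_right).1 hb0
    have bH : b ∈ C1[z] := hb.2
    have dH := mul_mem (mul_mem bH (h.zc h.xS)) (inv_mem bH)
    rw [← GW.bar_conj bH (h.zc h.xS), GW.bar_eq_iff dH (h.zc ht), hk] at e
    obtain ⟨o, ho, c, hc, e1⟩ := h.lift dH (h.xi.conj b).2 ht e
    have c2 : c * c = 1 := by
      have e2 : t * c * (t * c) = 1 := e1 ▸ ((h.xi.conj b).conj o).2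
      rwa [mul_assoc, ← mul_assoc c, ← mem_C_iff.1 hc.2 t ht, mul_assoc, ← mul_assoc t, it.2, one_mul] at e2
    rcases h.zu c hc c2 with rfl | rfl
    · exact ⟨o * b, mul_mem (thB ho) hb, by rw [← mul_one t, ← e1]; group⟩
    · refine ⟨o * b * y, mul_mem (mul_mem (thB ho) hb) (SB h.yS), ?_⟩
      have e3 := mem_C1.1 (inv_mem (mul_mem (th_le_C1 _ ho) bH))
      calc _ = o * b * (y * x * y⁻¹) * (o * b)⁻¹ := by group
        _ = o * b * x * (c * (o * b)⁻¹) := by rw [h.yx]; group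
        _ = o * (b * x * b⁻¹) * o⁻¹ * c := by rw [← e3]; group
        _ = t := by rw [e1, mul_assoc, c2, mul_one]
  have p1 : ∀ E ≤ C1[z], Odd (Nat.card E) → S ≤ N[E] → E ≤ th z := fun E hE ho hn =>
    bot E hE ho (R3 _ (GW.odd_im ho) (GW.im_le_normalizer hE hn))
  have ee : ∃ a ∈ S, ∃ b ∈ S, IsInv a ∧ IsInv b ∧ a ≠ z ∧ b ≠ z ∧ a * b * (a * b) = z := by
    obtain ⟨d, hd, d', hd', dT, dT', ne, cm⟩ := R2
    obtain ⟨a, ha, ia, az, rfl⟩ := lf d hd dT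
    obtain ⟨b, hb, ib, bz, rfl⟩ := lf d' hd' dT'
    refine ⟨a, ha, b, hb, ia, ib, az, bz, ?_⟩
    have ab := S.mul_mem ha hb
    have e : a * b * (a * b) = a * b * (b * a)⁻¹ := by rw [mul_inv_rev, ia.inv_eq, ib.inv_eq]
    have cZ : a * b * (a * b) ∈ C[S] := h.mem_Z (S.mul_mem ab ab) (by
      rw [← hk, e, ← GW.bar_eq_iff (h.zc ab) (h.zc (S.mul_mem hb ha)), GW.bar_mul (h.zc ha) (h.zc hb),
        GW.bar_mul (h.zc hb) (h.zc ha), cm])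
    have c2 : a * b * (a * b) * (a * b * (a * b)) = 1 := by
      have e1 := mem_C_iff.1 cZ a ha
      calc _ = a * b * (a * b) * a * (b * (a * b)) := by group
        _ = (a * a) * b * (a * (b * b) * a) * b := by rw [← e1]; group
        _ = 1 := by rw [ia.2, ib.2, mul_one, ia.2, one_mul, mul_one, ib.2]
    refine (h.zu _ (mem_inf.2 ⟨S.mul_mem ab ab, cZ⟩) c2).resolve_left fun e1 => ?_
    rw [e, mul_inv_eq_one] at e1
    rcases mem_of_rank h.rk h.zi ia az.symm (mem_C1.1 (h.zc ha)).symm ib.2 (mem_C1.1 (h.zc hb)) e1.symm with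
      e2 | e2 | e2 | e2
    · exact ib.1 e2
    · exact bz e2
    · exact ne (by rw [e2])
    · exact ne (by rw [e2, GW.bar_mul zH (h.zc ha), barZ z zZ, one_mul])
  rcases R4 with ⟨r1, r2⟩ | ⟨r1, r2, r3⟩
  · exact ⟨3, hW, h.zS, h.zi, h.zc, h.xS, h.xi, h.xz, h.yS, h.yx, ⟨m, hm, em⟩, one, Nat.prime_three, idx.trans r1, p1,
      fun E hE ho _ => px E hE ho (r2 _ (GW.odd_im (by rwa [card_conj]))), ee, .inl rfl⟩
  · obtain ⟨w, hw, w2⟩ := h.cases.resolve_left fun hc => r2 fun v hv => by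
      obtain ⟨s, hs, rfl⟩ := (GW.mem_im_of_le h.zc).1 hv
      have su := S.mul_mem hs h.uS
      have us := S.mul_mem h.uS hs
      rw [mem_C1, ← GW.bar_mul (h.zc hs) (h.zc h.uS), ← GW.bar_mul (h.zc h.uS) (h.zc hs),
        GW.bar_eq_iff (h.zc su) (h.zc us), hk]
      refine mem_sup_right (mem_inf.2 ⟨S.mul_mem su (S.inv_mem us), ?_⟩)
      rw [show s * u * (u * s)⁻¹ = ⁅s, u⁆ by rw [commutatorElement_def]; group]
      exact hc s hs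
    refine ⟨5, hW, h.zS, h.zi, h.zc, h.xS, h.xi, h.xz, h.yS, h.yx, ⟨m, hm, em⟩, one, Nat.prime_five, idx.trans r1, p1,
      fun E hE ho hn => px E hE ho ?_, ee, .inr ⟨w, hw, w2⟩⟩
    have wx : w ∈ C1[x] := mem_C1.2 (mem_C_iff.1 hw.2 x h.xS).symm
    have wH := tr w wx
    have wN : m⁻¹ * w * m ∈ N[m⁻¹ •ᶜ E] := by
      rw [normalizer_map_conj, mem_map_conj, show m⁻¹⁻¹ * (m⁻¹ * w * m) * m⁻¹ = w by group]
      exact hn (mem_inf.2 ⟨hw.1, wx⟩)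
    refine r3 _ (GW.odd_im (by rwa [card_conj])) (GW.bar f (m⁻¹ * w * m))
      (GW.im_le_normalizer (trE E hE) (zpowers_le.2 wN) (GW.bar_mem_im (mem_zpowers _) wH))
      ⟨m⁻¹ * z * m, tr z (mem_C1_comm.1 (h.zc h.xS)), h.zi.conj' m, fun e => h.xz ?_, ?_⟩
    · rw [← em]; nth_rewrite 1 [← e]; group
    · rw [← GW.bar_mul wH wH, show m⁻¹ * w * m * (m⁻¹ * w * m) = m⁻¹ * (w * w) * m by group, w2]

end Sy

end Cfsg.Lib.TCK
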